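import Cfsg.Agent.H1.Coprime

/-!
Coprime action in the form of a homomorphism into the automorphism group.
-/

set_option autoImplicit false

namespace H1

open Subgroup
open scoped Pointwise

variable {A G : Type*} [Group A] [Finite A] [Group G] [Finite G]

/-- The action of the semidirect product on its normal factor. -/
def sdpAut (φ : A →* MulAut G) : G ⋊[φ] A →* MulAut G :=
  SemidirectProduct.lift MulAut.conj φ fun a => by
    ext g x
    simp [MulAut.conj_apply]

/-- Glauberman's lemma for a group of automorphisms. -/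
theorem glauberman_exists_aut (φ : A →* MulAut G) (hcop : (Nat.card A).Coprime (Nat.card G))
    (hs : Group.IsSolvable A ∨ Group.IsSolvable G) {X : Type*} [MulAction (MulAut G) X] (x : X)
    (hx : ∀ a : A, ∃ g : G, φ a • x = MulAut.conj g • x) :
    ∃ g : G, ∀ a : A, φ a • MulAut.conj g • x = MulAut.conj g • x := by
  have : Finite (G ⋊[φ] A) := Finite.of_equiv _ SemidirectProduct.equivProd.symm
  let _ : MulAction (G ⋊[φ] A) X := MulAction.compHom X (sdpAut φ)
  have e1 := MonoidHom.ofInjective (SemidirectProduct.inl_injective (φ := φ))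
  have e2 := MonoidHom.ofInjective (SemidirectProduct.inr_injective (φ := φ))
  have hn : (SemidirectProduct.inl : G →* G ⋊[φ] A).range.Normal := by
    rw [SemidirectProduct.range_inl_eq_ker_rightHom]; infer_instance
  have h1 : ∀ (g : G) (y : X), (SemidirectProduct.inl g : G ⋊[φ] A) • y = MulAut.conj g • y :=
    fun g y => by change sdpAut φ _ • y = _; simp [sdpAut]
  have h2 : ∀ (a : A) (y : X), (SemidirectProduct.inr a : G ⋊[φ] A) • y = φ a • y :=
    fun g y => by change sdpAut φ _ • y = _; simp [sdpAut]
  obtain ⟨_, ⟨g, rfl⟩, hg⟩ := glauberman_exists (X := X)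
    (A := (SemidirectProduct.inr : A →* G ⋊[φ] A).range)
    (K := (SemidirectProduct.inl : G →* G ⋊[φ] A).range) le_normalizer_of_normal
    (by rwa [← Nat.card_congr e1.toEquiv, ← Nat.card_congr e2.toEquiv])
    (hs.imp (fun h => by
        have := h; exact solvable_of_surjective (f := e2.toMonoidHom) e2.surjective)
      fun h => by
        have := h; exact solvable_of_surjective (f := e1.toMonoidHom) e1.surjective) x (by
        rintro _ ⟨a, rfl⟩
        obtain ⟨g, hg⟩ := hx a
        exact ⟨_, ⟨g, rfl⟩, by rw [h1, h2, hg]⟩)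
  exact ⟨g, fun a => by have := hg _ ⟨a, rfl⟩; rwa [h1, h2] at this⟩

theorem exists_invariant_sylow_aut (φ : A →* MulAut G) (hcop : (Nat.card A).Coprime (Nat.card G))
    (hs : Group.IsSolvable A ∨ Group.IsSolvable G) (p : ℕ) [Fact p.Prime] :
    ∃ P : Sylow p G, ∀ a : A, ∀ x ∈ (P : Subgroup G), φ a x ∈ (P : Subgroup G) := by
  obtain ⟨P⟩ : Nonempty (Sylow p G) := inferInstance
  obtain ⟨g, hg⟩ := glauberman_exists_aut φ hcop hs P fun a => by
    obtain ⟨g, hg⟩ := MulAction.exists_smul_eq G P (φ a • P)
    exact ⟨g, hg.symm⟩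
  refine ⟨MulAut.conj g • P, fun a x hx => ?_⟩
  rw [← hg a, Sylow.pointwise_smul_def]
  exact smul_mem_pointwise_smul _ _ _ hx

end H1
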