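import Cfsg.Agent.H10.Act

/-! Subnormalizers of `p`-subgroups (Casolo). -/

set_option autoImplicit false
set_option linter.unusedSectionVars false

namespace H1.Cas
open Subgroup Cfsg H10 Finset

section mob
variable {α : Type*} [PartialOrder α] [Fintype α]

open Classical in
theorem mob_ex (A : α → Prop) :
    ∃ μ : α → ℤ, ∀ a, A a → ∑ b with A b ∧ a ≤ b, μ b = 1 := by
  let μ : α → ℤ := (wellFounded_gt (α := α)).fix
    (fun a ih => 1 - ∑ b : α, if h : A b ∧ a < b then ih b h.2 else 0)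
  have hμ : ∀ a, μ a = 1 - ∑ b with A b ∧ a < b, μ b := fun a => by
    show (wellFounded_gt (α := α)).fix _ a = _
    rw [WellFounded.fix_eq, sum_filter]
    congr 1
  refine ⟨μ, fun a ha => ?_⟩
  have : (univ.filter fun b => A b ∧ a ≤ b) = insert a (univ.filter fun b => A b ∧ a < b) := by
    ext b
    simp only [mem_filter, mem_univ, true_and, mem_insert]
    constructor
    · rintro ⟨h1, h2⟩
      rcases h2.eq_or_lt with h | h
      · exact Or.inl h.symm
      · exact Or.inr ⟨h1, h⟩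
    · rintro (rfl | ⟨h1, h2⟩)
      · exact ⟨ha, le_rfl⟩
      · exact ⟨h1, h2.le⟩
  rw [this, sum_insert (by simp), hμ a]; ring

open Classical in
theorem mob_uniq (A : α → Prop) (μ ν : α → ℤ)
    (h : ∀ a, A a → ∑ b with A b ∧ a ≤ b, μ b = ∑ b with A b ∧ a ≤ b, ν b) :
    ∀ a, A a → μ a = ν a := by
  intro a
  induction a using (wellFounded_gt (α := α)).induction with
  | _ a ih =>
  intro ha
  have : (univ.filter fun b => A b ∧ a ≤ b) = insert a (univ.filter fun b => A b ∧ a < b) := by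
    ext b
    simp only [mem_filter, mem_univ, true_and, mem_insert]
    constructor
    · rintro ⟨h1, h2⟩
      rcases h2.eq_or_lt with h | h
      · exact Or.inl h.symm
      · exact Or.inr ⟨h1, h⟩
    · rintro (rfl | ⟨h1, h2⟩)
      · exact ⟨ha, le_rfl⟩
      · exact ⟨h1, h2.le⟩
  have e := h a ha
  rw [this, sum_insert (by simp), sum_insert (by simp),
    sum_congr rfl (fun b hb => ih b (mem_filter.1 hb).2.2 (mem_filter.1 hb).2.1)] at e
  exact add_right_cancel e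
end mob

variable {G : Type*} [Group G] [Finite G] {p : ℕ} [Fact p.Prime]

/-- `g` normalizes a `p`-subgroup of `M` containing `H`. -/
def Sn (p : ℕ) (M H : Subgroup G) (g : G) : Prop :=
  ∃ R : Subgroup G, H ≤ R ∧ R ≤ M ∧ IsPGroup p R ∧ g ∈ NN(R)

theorem sn_iff {H : Subgroup G} (hH : IsPGroup p H) (g : G) :
    (H.subgroupOf (H ⊔ zpowers g)).IsSubnormal ↔ Sn p ⊤ H g := by
  constructor
  · intro h
    refine ⟨pCoreOf p (H ⊔ zpowers g), ?_, le_top, isPGroup_pCoreOf _, ?_⟩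
    · exact le_pCoreOf_of_subn hH ⟨le_sup_left, h⟩
    · exact le_NN_pCoreOf _ (mem_sup_right (mem_zpowers g))
  · rintro ⟨R, h1, -, h2, h3⟩
    exact (((subnIn_of_isPGroup h2 h1).trans (subnIn_of_normal (le_NN_self R) le_rfl)).of_le
      le_sup_left (sup_le (h1.trans (le_NN_self R)) (zpowers_le.2 h3))).2

theorem Sn.rad {H : Subgroup G} {g : G} (h : Sn p ⊤ H g) :
    ∃ R : Subgroup G, H ≤ R ∧ pCoreOf p NN(R) = R ∧ g ∈ NN(R) := by
  obtain ⟨R, ⟨h1, -, h2, h3⟩, hm⟩ := (wellFounded_gt (α := Subgroup G)).has_min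
    {R | H ≤ R ∧ R ≤ ⊤ ∧ IsPGroup p R ∧ g ∈ NN(R)} h
  have hle : R ≤ pCoreOf p NN(R) := le_pCoreOf h2 (le_NN_self R) le_rfl
  refine ⟨R, h1, ?_, h3⟩
  by_contra hne
  exact hm _ ⟨h1.trans hle, le_top, isPGroup_pCoreOf _, le_NN_pCoreOf _ h3⟩
    (lt_of_le_of_ne hle (Ne.symm hne))

/-- The intersection of the Sylow subgroups containing `H`. -/
def star (p : ℕ) (H : Subgroup G) : Subgroup G :=
  sInf {K : Subgroup G | ∃ Q : Sylow p G, H ≤ (Q : Subgroup G) ∧ K = (Q : Subgroup G)}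

theorem le_star (H : Subgroup G) : H ≤ star p H := le_sInf (by rintro _ ⟨Q, h, rfl⟩; exact h)

theorem star_le {H : Subgroup G} (Q : Sylow p G) (h : H ≤ Q) : star p H ≤ Q := sInf_le ⟨Q, h, rfl⟩

theorem star_mono {H K : Subgroup G} (h : H ≤ K) : star p H ≤ star p K :=
  le_sInf (by rintro _ ⟨Q, h', rfl⟩; exact star_le Q (h.trans h'))

theorem pg_star {H : Subgroup G} (hH : IsPGroup p H) : IsPGroup p (star p H) :=
  let ⟨Q, hQ⟩ := hH.exists_le_sylow; Q.isPGroup'.to_le (star_le Q hQ)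

theorem NN_star (H : Subgroup G) : NN(H) ≤ NN(star p H) := by
  refine le_NN_of_cj_le fun g hg => le_sInf ?_
  rintro _ ⟨Q, h, rfl⟩
  obtain ⟨Q', hQ'⟩ := ((isSylowIn_top Q).cj_top g⁻¹).exists_sylow_top
  rw [cj_le_iff, ← hQ']
  refine star_le Q' ?_
  rw [hQ', ← cj_le_iff, cj_eq_of_mem_NN hg]; exact h

theorem star_rad {R : Subgroup G} (h : pCoreOf p NN(R) = R) : star p R = R := by
  have hR : IsPGroup p R := h ▸ isPGroup_pCoreOf _
  refine (eq_of_inf_NN_le (pg_star hR) (le_star R) ?_).symm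
  conv_rhs => rw [← h]
  exact le_pCoreOf ((pg_star hR).to_le inf_le_left) inf_le_right
    (le_NN_inf (NN_star R) (le_NN_self _))

theorem sn_star {H : Subgroup G} (g : G) : Sn p ⊤ H g ↔ Sn p ⊤ (star p H) g := by
  constructor
  · intro h
    obtain ⟨R, h1, h2, h3⟩ := h.rad
    exact ⟨R, (star_mono h1).trans (star_rad h2).le, le_top, h2 ▸ isPGroup_pCoreOf _, h3⟩
  · rintro ⟨R, h1, h2⟩
    exact ⟨R, (le_star H).trans h1, h2⟩

section count
open Classical

/-- Fibres of the conjugation map. -/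
theorem fib [Fintype G] {M A : Subgroup G} {g₀ : G} (h₀ : g₀ ∈ M) :
    #{g : G | g ∈ M ∧ cj g A = cj g₀ A} = Nat.card (M ⊓ NN(A) : Subgroup G) := by
  rw [Nat.card_eq_fintype_card, Fintype.card_subtype]
  refine card_bij (fun g _ => g₀⁻¹ * g) ?_ ?_ ?_
  · intro g hg
    simp only [mem_filter, mem_univ, true_and, Subgroup.mem_inf] at hg ⊢
    exact ⟨mul_mem (inv_mem h₀) hg.1, by rw [mem_NN, cj_mul, hg.2, cj_inv_cj]⟩
  · intro a _ b _ e; exact mul_left_cancel e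
  · intro x hx
    simp only [mem_filter, mem_univ, true_and, Subgroup.mem_inf] at hx
    refine ⟨g₀ * x, ?_, by group⟩
    simp only [mem_filter, mem_univ, true_and]
    exact ⟨mul_mem h₀ hx.1, by rw [cj_mul, cj_eq_of_mem_NN hx.2]⟩

theorem card_cj_pred [Fintype G] [Fintype (Subgroup G)] (M A : Subgroup G) (Q : Subgroup G → Prop) :
    #{g : G | g ∈ M ∧ Q (cj g A)} =
      #{K : Subgroup G | Q K ∧ ∃ g ∈ M, cj g A = K} * Nat.card (M ⊓ NN(A) : Subgroup G) := by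
  rw [card_eq_sum_card_fiberwise (f := fun g => cj g A)
    (t := univ.filter fun K : Subgroup G => Q K ∧ ∃ g ∈ M, cj g A = K)
    (fun g hg => by
      simp only [coe_filter, mem_univ, true_and, Set.mem_setOf_eq] at hg ⊢
      exact ⟨hg.2, g, hg.1, rfl⟩), ← smul_eq_mul, ← sum_const]
  refine sum_congr rfl fun K hK => ?_
  obtain ⟨hQ, g₀, h₀, rfl⟩ := (mem_filter.1 hK).2
  rw [← fib (A := A) h₀]
  congr 1
  ext g
  simp only [mem_filter, mem_univ, true_and]
  exact ⟨fun h => ⟨h.1.1, h.2⟩, fun h => ⟨⟨h.1, h.2 ▸ hQ⟩, h.2⟩⟩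

theorem card_NN_syl {M T K : Subgroup G} (hT : IsSylowIn p T M) (hK : IsSylowIn p K M) :
    Nat.card (M ⊓ NN(K) : Subgroup G) = Nat.card (M ⊓ NN(T) : Subgroup G) := by
  obtain ⟨g, hg, rfl⟩ := hT.exists_cj hK
  rw [← cj_normalizer, ← card_cj g (M ⊓ NN(T)), cj_inf, cj_eq_of_mem hg]

theorem sum_syl [Fintype G] [Fintype (Subgroup G)] {M T : Subgroup G} (hT : IsSylowIn p T M)
    (H : Subgroup G) :
    ∑ K : Subgroup G with IsSylowIn p K M ∧ H ≤ K, Nat.card (M ⊓ NN(K) : Subgroup G) =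
      #{g : G | g ∈ M ∧ H ≤ cj g T} := by
  rw [card_cj_pred M T (H ≤ ·),
    sum_congr rfl fun K hK => card_NN_syl hT (mem_filter.1 hK).2.1, sum_const, smul_eq_mul]
  congr 2
  ext K
  simp only [mem_filter, mem_univ, true_and]
  constructor
  · rintro ⟨h1, h2⟩; exact ⟨h2, hT.exists_cj h1⟩
  · rintro ⟨h1, g, hg, rfl⟩; exact ⟨hT.cj_of_mem hg, h1⟩

/-- `g`-invariant `p`-subgroups of `M`. -/
def Iv (p : ℕ) (M : Subgroup G) (g : G) (K : Subgroup G) : Prop := K ≤ M ∧ IsPGroup p K ∧ g ∈ NN(K)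

variable [Fintype G] [Fintype (Subgroup G)]

noncomputable def mu (p : ℕ) (M : Subgroup G) (g : G) : Subgroup G → ℤ :=
  (mob_ex (Iv p M g)).choose

theorem mu_spec {M : Subgroup G} {g : G} {K : Subgroup G} (h : Iv p M g K) :
    ∑ L with Iv p M g L ∧ K ≤ L, mu p M g L = 1 := (mob_ex (Iv p M g)).choose_spec K h

theorem mu_sum (M H : Subgroup G) (g : G) :
    ∑ L with Iv p M g L ∧ H ≤ L, mu p M g L = if Sn p M H g then 1 else 0 := by
  split_ifs with h
  · obtain ⟨R, h1, h2, h3, h4⟩ := h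
    have hle : ncl H (zpowers g) ≤ R := ncl_le h1 (zpowers_le.2 h4)
    rw [← mu_spec (p := p) (M := M) (g := g) (K := ncl H (zpowers g))
      ⟨hle.trans h2, h3.to_le hle, le_NN_ncl _ _ (mem_zpowers g)⟩]
    refine sum_congr ?_ fun _ _ => rfl
    ext L
    simp only [mem_filter, mem_univ, true_and]
    exact ⟨fun h => ⟨h.1, ncl_le h.2 (zpowers_le.2 h.1.2.2)⟩, fun h => ⟨h.1, (le_ncl _ _).trans h.2⟩⟩
  · refine sum_eq_zero fun L hL => absurd ?_ h
    obtain ⟨⟨h1, h2, h3⟩, h4⟩ := (mem_filter.1 hL).2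
    exact ⟨L, h4, h1, h2, h3⟩

theorem mu_red {M R : Subgroup G} {g : G} (h : Iv p M g R) :
    mu p M g R = mu p (M ⊓ NN(R)) g R := by
  have hg : g ∈ NN(NN(R)) := NN_le_NN_NN R h.2.2
  have key := mob_uniq (fun L => Iv p (M ⊓ NN(R)) g L ∧ R ≤ L)
    (fun L => ∑ K with (Iv p M g K ∧ R ≤ K) ∧ K ⊓ NN(R) = L, mu p M g K) (mu p (M ⊓ NN(R)) g)
    (fun L₀ h₀ => by
      have e1 : ∑ L with (Iv p (M ⊓ NN(R)) g L ∧ R ≤ L) ∧ L₀ ≤ L, mu p (M ⊓ NN(R)) g L = 1 := by
        rw [← mu_spec h₀.1]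
        refine sum_congr ?_ fun _ _ => rfl
        ext L
        simp only [mem_filter, mem_univ, true_and]
        exact ⟨fun h => ⟨h.1.1, h.2⟩, fun h => ⟨⟨h.1, h₀.2.trans h.2⟩, h.2⟩⟩
      have hI : Iv p M g L₀ := ⟨h₀.1.1.trans inf_le_left, h₀.1.2⟩
      have e2 := mu_spec hI
      rw [← sum_fiberwise_of_maps_to (g := fun K => K ⊓ NN(R))
        (t := univ.filter fun L => (Iv p (M ⊓ NN(R)) g L ∧ R ≤ L) ∧ L₀ ≤ L) (fun K hK => by
          obtain ⟨⟨h1, h2, h3⟩, h4⟩ := (mem_filter.1 hK).2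
          exact mem_filter.2 ⟨mem_univ _, ⟨⟨inf_le_inf_right _ h1, h2.to_le inf_le_left,
            mem_NN_inf h3 hg⟩, le_inf (h₀.2.trans h4) (le_NN_self R)⟩,
            le_inf h4 (h₀.1.1.trans inf_le_right)⟩)] at e2
      refine Eq.trans ?_ (e2.trans (by convert e1.symm))
      refine sum_congr (by congr) fun L hL => sum_congr ?_ fun _ _ => rfl
      obtain ⟨⟨-, h1⟩, h2⟩ := (mem_filter.1 hL).2
      ext K
      simp only [mem_filter, mem_univ, true_and]
      exact ⟨fun h => ⟨⟨h.1.1, h2.trans (h.2 ▸ inf_le_left)⟩, h.2⟩,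
        fun h => ⟨⟨h.1.1, h1.trans (h.2 ▸ inf_le_left)⟩, h.2⟩⟩)
    R ⟨⟨le_inf h.1 (le_NN_self R), h.2⟩, le_rfl⟩
  rw [← key, sum_eq_single R]
  · intro K hK hne
    obtain ⟨⟨h1, h2⟩, h3⟩ := (mem_filter.1 hK).2
    exact absurd (eq_of_inf_NN_le h1.2.1 h2 h3.le).symm hne
  · intro hR
    exact absurd (mem_filter.2 ⟨mem_univ _, ⟨h, le_rfl⟩, inf_eq_left.2 (le_NN_self R)⟩) hR

noncomputable def cc (p : ℕ) (M R : Subgroup G) : ℤ := ∑ g with g ∈ M ⊓ NN(R), mu p M g R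

theorem cc_sum (M H : Subgroup G) :
    (#{g : G | g ∈ M ∧ Sn p M H g} : ℤ) =
      ∑ K : Subgroup G with K ≤ M ∧ IsPGroup p K ∧ H ≤ K, cc p M K := by
  have : (#{g : G | g ∈ M ∧ Sn p M H g} : ℤ) =
      ∑ g with g ∈ M, ∑ L with Iv p M g L ∧ H ≤ L, mu p M g L := by
    simp only [mu_sum, sum_boole, filter_filter]
  rw [this]
  unfold cc
  refine sum_comm' fun g K => ?_
  simp only [mem_filter, mem_univ, true_and, Subgroup.mem_inf]
  unfold Iv
  tauto

theorem cc_syl {M K : Subgroup G} (h : IsSylowIn p K M) :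
    cc p M K = Nat.card (M ⊓ NN(K) : Subgroup G) := by
  rw [Nat.card_eq_fintype_card, Fintype.card_subtype, card_eq_sum_ones, Nat.cast_sum]
  refine sum_congr (by congr) fun g hg => ?_
  have hg' : g ∈ M ⊓ NN(K) := (mem_filter.1 hg).2
  have hI : Iv p M g K := ⟨h.le, h.isPGroup, hg'.2⟩
  have := mu_spec hI
  rw [sum_eq_single K] at this
  · rw [this]; rfl
  · intro L hL hne
    obtain ⟨h1, h2⟩ := (mem_filter.1 hL).2
    exact absurd (h.eq_of_le h1.2.1 h2 h1.1) hne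
  · intro hK; exact absurd (mem_filter.2 ⟨mem_univ _, hI, le_rfl⟩) hK

theorem sum_cc_of {M H : Subgroup G} (s : Finset (Subgroup G))
    (hs : ∀ K, K ∈ s → K ≤ M ∧ IsPGroup p K ∧ H ≤ K)
    (hs' : ∀ K, IsSylowIn p K M → H ≤ K → K ∈ s)
    (h0 : ∀ K ∈ s, ¬ IsSylowIn p K M → cc p M K = 0) {T : Subgroup G} (hT : IsSylowIn p T M) :
    ∑ K ∈ s, cc p M K = #{g : G | g ∈ M ∧ H ≤ cj g T} := by
  rw [← sum_syl hT H, Nat.cast_sum, ← sum_filter_add_sum_filter_not s (IsSylowIn p · M),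
    sum_eq_zero (s := s.filter _) (fun K hK => h0 K (mem_filter.1 hK).1 (mem_filter.1 hK).2), add_zero]
  refine sum_congr ?_ fun K hK => cc_syl (mem_filter.1 hK).2.1
  ext K
  simp only [mem_filter, mem_univ, true_and]
  exact ⟨fun h => ⟨h.2, (hs K h.1).2.2⟩, fun h => ⟨hs' K h.1 h.2, h.1⟩⟩

theorem cc_zero (R : Subgroup G) (hR : IsPGroup p R) :
    ∀ M : Subgroup G, R ≤ M → ¬ IsSylowIn p R M → cc p M R = 0 := by
  induction R using (wellFounded_gt (α := Subgroup G)).induction with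
  | _ R ih =>
  intro M hM hn
  set N := M ⊓ NN(R) with hN
  have hRN : R ≤ N := le_inf hM (le_NN_self R)
  have e1 : cc p M R = cc p N R := by
    unfold cc
    refine sum_congr ?_ fun g hg => mu_red ⟨hM, hR, ?_⟩
    · rw [hN, inf_assoc, inf_idem]
    · exact (mem_filter.1 hg).2.2
  have hn' : ¬ IsSylowIn p R N := by
    intro h
    obtain ⟨T, hT, hle⟩ := exists_isSylowIn_ge hR hM
    have := h.eq_of_le (hT.isPGroup.to_le (inf_le_left (b := NN(R)))) (le_inf hle (le_NN_self R))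
      (inf_le_inf_right _ hT.le)
    exact hn (eq_of_inf_NN_le hT.isPGroup hle this.le ▸ hT)
  obtain ⟨T, hT, hle⟩ := exists_isSylowIn_ge hR hRN
  have e2 := cc_sum (p := p) N R
  rw [← add_sum_erase _ _ (a := R) (mem_filter.2 ⟨mem_univ _, hRN, hR, le_rfl⟩),
    sum_cc_of (H := R) _ (fun K hK => (mem_filter.1 (mem_of_mem_erase hK)).2)
      (fun K h1 h2 => mem_erase.2 ⟨fun e : K = R => hn' (by rwa [e] at h1),
        mem_filter.2 ⟨mem_univ _, h1.le, h1.isPGroup, h2⟩⟩)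
      (fun K hK hK' => by
        obtain ⟨h1, h2⟩ := mem_erase.1 hK
        obtain ⟨h3, h4, h5⟩ := (mem_filter.1 h2).2
        exact ih K (lt_of_le_of_ne h5 (Ne.symm h1)) h4 N h3 hK') hT] at e2
  have e3 : (univ.filter fun g : G => g ∈ N ∧ Sn p N R g) =
      univ.filter fun g : G => g ∈ N ∧ R ≤ cj g T := by
    ext g
    simp only [mem_filter, mem_univ, true_and]
    refine and_congr_right fun hg => ⟨fun _ => ?_, fun _ => ⟨R, le_rfl, hRN, hR, hg.2⟩⟩
    rw [← cj_eq_of_mem_NN (H := R) hg.2]; exact cj_mono g hle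
  rw [e3] at e2
  rw [e1]; omega

theorem card_sn' {M T : Subgroup G} (hT : IsSylowIn p T M) (H : Subgroup G) :
    #{g : G | g ∈ M ∧ Sn p M H g} = #{g : G | g ∈ M ∧ H ≤ cj g T} := by
  have e := cc_sum (p := p) M H
  rw [sum_cc_of (H := H) _ (fun K hK => (mem_filter.1 hK).2)
    (fun K h1 h2 => mem_filter.2 ⟨mem_univ _, h1.le, h1.isPGroup, h2⟩)
    (fun K hK hK' => cc_zero K (mem_filter.1 hK).2.2.1 M (mem_filter.1 hK).2.1 hK') hT] at e
  exact_mod_cast e

end count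

/-- Casolo's theorem. -/
theorem card_sn {H : Subgroup G} (hH : IsPGroup p H) (P : Sylow p G) :
    Nat.card {g : G // (H.subgroupOf (H ⊔ zpowers g)).IsSubnormal} =
      Nat.card {g : G // H ≤ cj g P} := by
  classical
  haveI := Fintype.ofFinite G
  haveI := Fintype.ofFinite (Subgroup G)
  have := card_sn' (isSylowIn_top P) H
  simp only [Subgroup.mem_top, true_and] at this
  rw [Nat.card_eq_fintype_card, Nat.card_eq_fintype_card, Fintype.card_subtype,
    Fintype.card_subtype]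
  simp only [sn_iff hH]
  convert this

theorem card_le_cj (H P : Subgroup G) :
    Nat.card {g : G // H ≤ cj g P} = Nat.card {g : G // cj g H ≤ P} :=
  Nat.card_congr ((Equiv.inv G).subtypeEquiv fun g => by rw [Equiv.inv_apply, le_cj_iff])

theorem card_pred (A : Subgroup G) (Q : Subgroup G → Prop) :
    Nat.card {g : G // Q (cj g A)} =
      Nat.card {K : Subgroup G // Q K ∧ ∃ g, K = cj g A} * Nat.card NN(A) := by
  classical
  haveI := Fintype.ofFinite G
  haveI := Fintype.ofFinite (Subgroup G)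
  have := card_cj_pred ⊤ A Q
  simp only [Subgroup.mem_top, true_and, top_inf_eq] at this
  rw [Nat.card_eq_fintype_card, Nat.card_eq_fintype_card (α := {K : Subgroup G // _}),
    Fintype.card_subtype, Fintype.card_subtype]
  simp only [eq_comm (b := cj _ A)]
  convert this

theorem card_syl (H : Subgroup G) (P : Sylow p G) :
    Nat.card {g : G // H ≤ cj g P} =
      Nat.card {Q : Sylow p G // H ≤ (Q : Subgroup G)} * Nat.card NN((P : Subgroup G)) := by
  rw [card_pred P (H ≤ ·)]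
  congr 1
  symm
  refine Nat.card_congr (Equiv.ofBijective (fun Q => ⟨Q.1, Q.2,
    let ⟨g, _, e⟩ := (isSylowIn_top P).exists_cj (isSylowIn_top Q.1); ⟨g, e.symm⟩⟩) ⟨?_, ?_⟩)
  · intro a b e
    exact Subtype.ext (Sylow.ext (congrArg Subtype.val e))
  · rintro ⟨K, h1, g, rfl⟩
    obtain ⟨Q, hQ⟩ := ((isSylowIn_top P).cj_top g).exists_sylow_top
    exact ⟨⟨Q, hQ ▸ h1⟩, Subtype.ext hQ⟩

end H1.Cas
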