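import Cfsg.Agent.H1.Cas1

/-! Counting conjugates inside `P M` along a `p`-series. -/

set_option autoImplicit false
set_option linter.unusedSectionVars false

namespace H1.Cas
open Subgroup Cfsg H10 Finset

variable {G : Type*} [Group G] [Finite G] {p : ℕ} [Fact p.Prime]

noncomputable def bb (L H : Subgroup G) : ℕ := Nat.card {g : G // cj g H ≤ L}

/-- The centralizer of `H` in `M'` modulo `M`. -/
def cm (M M' H : Subgroup G) [hM : M.Normal] : Subgroup G where
  carrier := {u | u ∈ M' ∧ ∀ h ∈ H, h * u * h⁻¹ * u⁻¹ ∈ M}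
  one_mem' := ⟨one_mem _, fun h _ => by simp⟩
  mul_mem' := by
    rintro a b ⟨a1, a2⟩ ⟨b1, b2⟩
    refine ⟨mul_mem a1 b1, fun h hh => ?_⟩
    have := mul_mem (a2 h hh) (hM.conj_mem _ (b2 h hh) a)
    convert this using 1; group
  inv_mem' := by
    rintro a ⟨a1, a2⟩
    refine ⟨inv_mem a1, fun h hh => ?_⟩
    have := hM.conj_mem _ (inv_mem (a2 h hh)) a⁻¹
    convert this using 1; group

variable {M M' : Subgroup G} [hM : M.Normal] [hM' : M'.Normal]

theorem le_cm (h : M ≤ M') (H : Subgroup G) : M ≤ cm M M' H := fun u hu =>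
  ⟨h hu, fun x _ => mul_mem (hM.conj_mem _ hu x) (inv_mem hu)⟩

theorem cm_bot : cm M M' ⊥ = M' := by
  ext u
  exact ⟨fun h => h.1, fun h => ⟨h, fun x hx => by rw [mem_bot.1 hx]; simp⟩⟩

theorem cj_cm (g : G) (H : Subgroup G) : cj g (cm M M' H) = cm M M' (cj g H) := by
  ext u
  rw [mem_cj]
  constructor
  · rintro ⟨h1, h2⟩
    refine ⟨by simpa [mul_assoc] using hM'.conj_mem _ h1 g, fun h hh => ?_⟩
    have := hM.conj_mem _ (h2 _ (mem_cj.1 hh)) g
    convert this using 1; group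
  · rintro ⟨h1, h2⟩
    refine ⟨by simpa using hM'.conj_mem _ h1 g⁻¹, fun h hh => ?_⟩
    have := hM.conj_mem _ (h2 _ (mem_cj'.2 ⟨h, hh, rfl⟩)) g⁻¹
    convert this using 1; group

theorem inf_le_of_cop {P : Subgroup G} (hP : IsPGroup p P) (h : M ≤ M')
    (hc : (M.relIndex M').Coprime p) : P ⊓ M' ≤ M := by
  intro a ha
  obtain ⟨k, hk⟩ := isPGroup_iff_mem.1 hP a ha.1
  haveI : (M.subgroupOf M').Normal := hM.subgroupOf M'
  have h1 : a ^ M.relIndex M' ∈ M := (M.subgroupOf M').pow_index_mem ⟨a, ha.2⟩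
  have h2 : (orderOf a).Coprime (M.relIndex M') :=
    (hc.symm.pow_left k).coprime_dvd_left (orderOf_dvd_of_pow_eq_one hk)
  exact zpowers_le.2 h1 (mem_zpowers_pow_iff.2 h2.symm)

theorem sup_inf_eq {P : Subgroup G} (hP : IsPGroup p P) (h : M ≤ M')
    (hc : (M.relIndex M').Coprime p) : (P ⊔ M) ⊓ M' = M := by
  rw [sup_comm, dedekind_right h (le_NN_of_normal _ _)]
  exact sup_eq_left.2 (inf_le_of_cop hP h hc)

open Classical in
theorem card_step {P : Subgroup G} (hP : IsSylowIn p P ⊤) (h : M ≤ M') (hc : (M.relIndex M').Coprime p) {K : Subgroup G}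
    (hK : IsPGroup p K) :
    Nat.card {u : G // u ∈ M' ∧ cj u K ≤ P ⊔ M} =
      if K ≤ P ⊔ M' then Nat.card (cm M M' K) else 0 := by
  split_ifs with hle
  · obtain ⟨y, hy, h1⟩ := (hP.of_le (le_sup_left (b := M')) le_top).exists_cj_le hK hle
    obtain ⟨x, hx, u₀, hu₀, rfl⟩ := (mem_sup_of_NN (le_NN_of_normal _ _)).1 hy
    have h2 : cj u₀ K ≤ P := by
      rw [cj_mul, cj_le_iff, cj_eq_of_mem (inv_mem hx)] at h1; exact h1
    rw [← card_cj u₀ (cm M M' K), cj_cm]
    refine Nat.card_congr ((Equiv.mulRight u₀⁻¹).subtypeEquiv fun u => ?_)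
    simp only [Equiv.coe_mulRight]
    have e : cj u K = cj (u * u₀⁻¹) (cj u₀ K) := by rw [← cj_mul]; simp
    rw [e]
    have e2 : u ∈ M' ↔ u * u₀⁻¹ ∈ M' := (mul_mem_cancel_right (inv_mem hu₀)).symm
    rw [e2]
    generalize u * u₀⁻¹ = v
    refine and_congr_right fun hv => ⟨fun h3 k hk => ?_, fun h3 => cj_le_of fun k hk => ?_⟩
    · rw [← sup_inf_eq hP.isPGroup h hc]
      refine Subgroup.mem_inf.2 ⟨?_, mul_mem (hM'.conj_mem _ hv k) (inv_mem hv)⟩
      have := mul_mem (mem_sup_left (T := M) (h2 hk)) (inv_mem (h3 (mem_cj'.2 ⟨k, hk, rfl⟩)))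
      convert this using 1; group
    · have := mul_mem (inv_mem (mem_sup_right (S := P) (h3 k hk)))
        (mem_sup_left (T := M) (h2 hk))
      convert this using 1; group
  · rw [Nat.card_eq_zero]
    refine Or.inl ⟨fun ⟨u, hu, h1⟩ => hle ?_⟩
    rw [cj_le_iff] at h1
    exact h1.trans (cj_le_of_mem (inv_mem (mem_sup_right hu)) (sup_le_sup_left h _))

theorem bb_step {P : Subgroup G} (hP : IsSylowIn p P ⊤) (h : M ≤ M') (hc : (M.relIndex M').Coprime p) {H : Subgroup G}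
    (hH : IsPGroup p H) :
    bb (P ⊔ M) H * Nat.card M' = bb (P ⊔ M') H * Nat.card (cm M M' H) := by
  classical
  haveI := Fintype.ofFinite G
  have e1 : ∀ u : G, #{g : G | cj (u * g) H ≤ P ⊔ M} = bb (P ⊔ M) H := fun u => by
    rw [bb, ← Fintype.card_subtype, ← Nat.card_eq_fintype_card]
    exact Nat.card_congr ((Equiv.mulLeft u).subtypeEquiv fun g => Iff.rfl)
  have e2 : ∀ g : G, #{u : G | u ∈ M' ∧ cj (u * g) H ≤ P ⊔ M} =
      if cj g H ≤ P ⊔ M' then Nat.card (cm M M' H) else 0 := fun g => by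
    rw [← card_cj g (cm M M' H), cj_cm, ← card_step hP h hc (isPGroup_cj g hH),
      Nat.card_eq_fintype_card, Fintype.card_subtype]
    simp only [cj_mul]
  have e3 : ∑ u : G with u ∈ M', #{g : G | cj (u * g) H ≤ P ⊔ M} =
      ∑ g : G, #{u : G | u ∈ M' ∧ cj (u * g) H ≤ P ⊔ M} := by
    simp only [card_eq_sum_ones]
    refine sum_comm' fun u g => ?_
    simp only [mem_filter, mem_univ, true_and, and_true]
  simp only [e1, e2, sum_const, smul_eq_mul, ← sum_filter] at e3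
  rw [mul_comm, Nat.card_eq_fintype_card (α := M'), Fintype.card_subtype, e3, bb,
    Nat.card_eq_fintype_card (α := {g : G // cj g H ≤ P ⊔ M'}), Fintype.card_subtype]

theorem sup_eq_of_pow {P : Subgroup G} (hP : IsSylowIn p P ⊤) (h : M ≤ M') {m : ℕ} (hc : M.relIndex M' = p ^ m) :
    P ⊔ M = P ⊔ M' := by
  refine le_antisymm (sup_le_sup_left h _) (sup_le le_sup_left ?_)
  rw [← relIndex_eq_one]
  have h1 : (P ⊔ M).relIndex M' ∣ p ^ m := hc ▸ relIndex_dvd_of_le_left _ le_sup_right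
  have h2 := (hP.inf_normal (N := M') le_top (le_NN_of_normal _ _)).not_dvd_relIndex
  rw [inf_relIndex_right] at h2
  obtain ⟨j, -, hj⟩ := (Nat.dvd_prime_pow Fact.out).1 h1
  rcases j with _ | j
  · simpa using hj
  · exact absurd ((hj ▸ dvd_pow_self p j.succ_ne_zero).trans
      (relIndex_dvd_of_le_left _ le_sup_left)) h2

theorem card_sup_step {P : Subgroup G} (hP : IsPGroup p P) (h : M ≤ M')
    (hc : (M.relIndex M').Coprime p) :
    Nat.card (P ⊔ M' : Subgroup G) * Nat.card M = Nat.card (P ⊔ M : Subgroup G) * Nat.card M' := by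
  have e : P ⊓ M' = P ⊓ M :=
    le_antisymm (le_inf inf_le_left (inf_le_of_cop hP h hc)) (inf_le_inf_left _ h)
  have h1 := H10.card_sup_mul_card_inf (L := P) (N := M) (le_NN_of_normal _ _)
  have h2 := H10.card_sup_mul_card_inf (L := P) (N := M') (le_NN_of_normal _ _)
  rw [e] at h2
  refine Nat.eq_of_mul_eq_mul_right (Nat.card_pos (α := (P ⊓ M : Subgroup G))) ?_
  rw [mul_right_comm, h2, mul_right_comm (Nat.card (P ⊔ M : Subgroup G)), h1]; ring

theorem telescope : ∀ (n : ℕ) (r : Fin (n + 1) → ℚ) (t : Fin n → ℚ),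
    (∀ j, r j.castSucc = r j.succ * t j) → r 0 = r (Fin.last n) * ∏ j, t j
  | 0, r, t, _ => by simp
  | n + 1, r, t, h => by
    have := telescope n (fun j => r j.castSucc) (fun j => t j.castSucc) (fun j => h j.castSucc)
    rw [Fin.prod_univ_castSucc, ← Fin.succ_last, mul_left_comm, ← h, mul_comm]
    exact this

omit hM hM' in
theorem bb_top (H : Subgroup G) : bb ⊤ H = Nat.card G :=
  Nat.card_congr (Equiv.subtypeUnivEquiv fun _ => le_top)

end H1.Cas
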