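import Cfsg.Agent.H1.Cas2
import Cfsg.Agent.H2.Wielandt
import Cfsg.Agent.H1.HallTop

/-! A fixed point inequality for coprime actions of `p`-groups. -/

set_option autoImplicit false
set_option linter.unusedSectionVars false

namespace H1.Cas
open Subgroup Cfsg H10 Finset Module H2

universe u

section lin
variable {F : Type*} [Field F] {P : Type*} [Group P] {p : ℕ} [Fact p.Prime]

theorem indep {W : Type*} [AddCommGroup W] [Module F W] {ι : Type*} [DecidableEq ι] (A : ι → End F W)
    (U : Submodule F W) (hU : ∀ i, ∀ w ∈ U, A i w ∈ U) (hc : ∀ i k, Commute (A i) (A k))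
    (h0 : ∀ i k, i ≠ k → ∀ w ∈ U, A i w = 0 → A k w = 0 → w = 0) (s : Finset ι) :
    ∀ w : ι → W, (∀ i ∈ s, w i ∈ U ∧ A i (w i) = 0) → ∑ i ∈ s, w i = 0 → ∀ i ∈ s, w i = 0 := by
  induction s using Finset.induction_on with
  | empty => simp
  | insert k s hk ih =>
    intro w hw hs
    rw [sum_insert hk] at hs
    have h1 : ∑ i ∈ s, A k (w i) = 0 := by
      have := congrArg (A k) hs
      rwa [map_add, (hw k (mem_insert_self _ _)).2, zero_add, map_sum, map_zero] at this
    have h2 := ih (fun i => A k (w i)) (fun i hi => ⟨hU _ _ (hw i (mem_insert_of_mem hi)).1, by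
      rw [← End.mul_apply, (hc i k).eq, End.mul_apply, (hw i (mem_insert_of_mem hi)).2,
        map_zero]⟩) h1
    have h3 : ∀ i ∈ s, w i = 0 := fun i hi => h0 i k (fun e => hk (e ▸ hi)) _
      (hw i (mem_insert_of_mem hi)).1 (hw i (mem_insert_of_mem hi)).2 (h2 i hi)
    rw [sum_eq_zero h3, add_zero] at hs
    intro i hi
    rcases mem_insert.1 hi with rfl | hi
    · exact hs
    · exact h3 i hi

/-- the stabilizer of a vector -/
def stb {W : Type*} [AddCommGroup W] [Module F W] (σ : P →* End F W) (w : W) : Subgroup P where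
  carrier := {g | σ g w = w}
  one_mem' := by simp
  mul_mem' := by
    intro a b ha hb
    simp only [Set.mem_setOf_eq] at *
    rw [map_mul, End.mul_apply, hb, ha]
  inv_mem' := by
    intro a ha
    simp only [Set.mem_setOf_eq] at *
    conv_lhs => rw [← ha]
    rw [← End.mul_apply, ← map_mul, inv_mul_cancel, map_one, End.one_apply]

theorem mem_fix_zp {W : Type*} [AddCommGroup W] [Module F W] {σ : P →* End F W} {x : P} {w : W} :
    w ∈ fix σ (zpowers x) ↔ σ x w = w :=
  ⟨fun h => h x (mem_zpowers x), fun h => (zpowers_le (H := stb σ w)).2 h⟩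

theorem lin_step {W : Type*} [AddCommGroup W] [Module F W] [FiniteDimensional F W]
    (σ : P →* End F W) (hp : (p : F) ≠ 0) {z : P} (hz : ∀ x, Commute (σ z) (σ x))
    (hzp : σ z ^ p = 1) (x : P) :
    ∑ i : Fin p, finrank F (fix σ (zpowers (x * z ^ (i : ℕ)))) + finrank F (fix σ (zpowers z)) ≤
      finrank F W + p * finrank F (fix σ (zpowers z) ⊓ fix σ (zpowers x) : Submodule F W) := by
  classical
  set T := fix σ (zpowers z)
  let K : Fin p → Submodule F W := fun i => fix σ (zpowers (x * z ^ (i : ℕ)))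
  let D : End F W := σ z - 1
  have hT : LinearMap.ker D = T := by
    ext w; simp [D, T, mem_fix_zp, sub_eq_zero]
  let L : (Π i, K i) →ₗ[F] W := ∑ i, D ∘ₗ (K i).subtype ∘ₗ LinearMap.proj i
  have hL : ∀ v, L v = ∑ i, D (v i) := fun v => by simp [L]
  have h1 : LinearMap.range L ≤ LinearMap.range D := by
    rintro _ ⟨v, rfl⟩
    rw [hL]; exact Submodule.sum_mem _ fun i _ => ⟨_, rfl⟩
  have hcD : ∀ y, Commute D (σ y) := fun y => (hz y).sub_left (Commute.one_left _)
  have hind := indep (fun i : Fin p => σ (x * z ^ (i : ℕ)) - 1) (LinearMap.range D)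
    (by
      rintro i _ ⟨w, rfl⟩
      refine ⟨(σ (x * z ^ (i : ℕ)) - 1) w, ?_⟩
      rw [← End.mul_apply, ← End.mul_apply, ((hcD _).sub_right (Commute.one_right _)).eq])
    (fun i k => by
      have : Commute (σ (x * z ^ (i : ℕ))) (σ (x * z ^ (k : ℕ))) := by
        simp only [map_mul, map_pow]
        exact ((Commute.refl _).mul_right ((hz x).symm.pow_right _)).mul_left
          (((hz x).pow_left _).mul_right (Commute.pow_pow_self _ _ _))
      exact (this.sub_right (Commute.one_right _)).sub_left (Commute.one_left _))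
    (by
      rintro i k hik _ ⟨w, rfl⟩ e1 e2
      have m1 : x * z ^ (i : ℕ) ∈ stb σ (D w) := sub_eq_zero.1 e1
      have m2 : x * z ^ (k : ℕ) ∈ stb σ (D w) := sub_eq_zero.1 e2
      have m3 : z ^ ((k : ℤ) - i) ∈ stb σ (D w) := by
        have := mul_mem (inv_mem m1) m2
        convert this using 1; group
      have m4 : z ^ (p : ℤ) ∈ stb σ (D w) := by
        show σ _ _ = _
        rw [zpow_natCast, map_pow, hzp, End.one_apply]
      have hcop : IsCoprime (p : ℤ) ((k : ℤ) - i) := by
        refine (Nat.prime_iff_prime_int.1 Fact.out).irreducible.coprime_iff_not_dvd.2 fun h => hik ?_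
        have := Int.eq_zero_of_abs_lt_dvd h (by
          have := i.2; have := k.2; rw [abs_lt]; constructor <;> omega)
        exact Fin.ext (by omega)
      obtain ⟨a, b, e⟩ := hcop
      have m5 : σ z (D w) = D w := by
        have := mul_mem (zpow_mem m4 a) (zpow_mem m3 b)
        rwa [← zpow_mul, ← zpow_mul, ← zpow_add, mul_comm _ a, mul_comm _ b, e, zpow_one] at this
      have e3 : (∑ j ∈ range p, σ z ^ j) (D w) = 0 := by
        rw [← End.mul_apply, geom_sum_mul, hzp, sub_self, LinearMap.zero_apply]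
      have e4 : ∀ j, (σ z ^ j) (D w) = D w := fun j => by
        rw [← map_pow]; exact (stb σ (D w)).pow_mem m5 j
      simp only [LinearMap.sum_apply, e4, sum_const, card_range] at e3
      rw [← Nat.cast_smul_eq_nsmul F] at e3
      exact (smul_eq_zero.1 e3).resolve_left hp) univ
  have h2 : ∀ v ∈ LinearMap.ker L, ∀ i, (v i : W) ∈ T ⊓ fix σ (zpowers x) := by
    intro v hv i
    have e := hind (fun i => D (v i)) (fun i _ => ⟨⟨_, rfl⟩, by
      have := mem_fix_zp.1 (v i).2
      rw [LinearMap.sub_apply, ← End.mul_apply, ← (hcD _).eq, End.mul_apply, this, End.one_apply,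
        sub_self]⟩) (by rw [← hL]; exact hv) i (mem_univ _)
    have m1 : (v i : W) ∈ T := hT ▸ e
    refine ⟨m1, mem_fix_zp.2 ?_⟩
    have m2 : x * z ^ (i : ℕ) ∈ stb σ (v i : W) := mem_fix_zp.1 (v i).2
    have m3 : z ∈ stb σ (v i : W) := mem_fix_zp.1 m1
    exact (mul_mem_cancel_right (pow_mem m3 _)).1 m2
  let J : LinearMap.ker L →ₗ[F] (Fin p → (T ⊓ fix σ (zpowers x) : Submodule F W)) :=
    { toFun := fun v i => ⟨v.1 i, h2 v.1 v.2 i⟩
      map_add' := fun _ _ => rfl
      map_smul' := fun _ _ => rfl }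
  have h3 := LinearMap.finrank_le_finrank_of_injective (f := J) (fun a b e =>
    Subtype.ext (funext fun i => Subtype.ext (congrArg (fun f => (f i : W)) e)))
  have h4 := L.finrank_range_add_finrank_ker
  have h5 := D.finrank_range_add_finrank_ker
  have h6 := Submodule.finrank_mono h1
  rw [finrank_pi_fintype] at h3 h4
  rw [sum_const, card_univ, Fintype.card_fin, smul_eq_mul] at h3
  rw [hT] at h5
  show ∑ i, finrank F (K i) + _ ≤ _
  omega

theorem lin_main [Fintype P] (hP : IsPGroup p P) (hp : (p : F) ≠ 0) (n : ℕ) :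
    ∀ (W : Type u) [AddCommGroup W] [Module F W] [FiniteDimensional F W] (σ : P →* End F W),
    σ.ker.index = n → p * ∑ x, finrank F (fix σ (zpowers x)) ≤
      Nat.card P * finrank F W + (p - 1) * Nat.card P * finrank F (fix σ ⊤) := by
  induction n using Nat.strong_induction_on with
  | _ n ih =>
  intro W _ _ _ σ hn
  by_cases h : σ.ker = ⊤
  · have : ∀ S, fix σ S = ⊤ := fun S => eq_top_iff.2 fun w _ s _ => by
      rw [show σ s = 1 from h.ge (mem_top s), End.one_apply]
    have e : ∀ S, finrank F (fix σ S) = finrank F W := fun S => by rw [this, finrank_top]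
    simp only [e, sum_const, card_univ, smul_eq_mul, Nat.card_eq_fintype_card]
    obtain ⟨q, rfl⟩ := Nat.exists_eq_succ_of_ne_zero (Fact.out : p.Prime).ne_zero
    simp only [Nat.succ_sub_one, Nat.succ_eq_add_one]
    exact le_of_eq (by ring)
  haveI : Nontrivial (P ⧸ σ.ker) := QuotientGroup.nontrivial_iff.2 h
  have hQ := hP.to_quotient σ.ker
  haveI := hQ.center_nontrivial
  obtain ⟨z', hz', ho⟩ := exists_orderOf_eq_of_ne_bot (hQ.to_subgroup (center _))
    ((center _).nontrivial_iff_ne_bot.1 inferInstance)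
  obtain ⟨z, rfl⟩ := QuotientGroup.mk_surjective z'
  have hz : ∀ x, Commute (σ z) (σ x) := fun x => by
    have e : ((x * z : P) : P ⧸ σ.ker) = (z * x : P) := mem_center_iff.1 hz' x
    have := QuotientGroup.eq.1 e
    rw [MonoidHom.mem_ker] at this
    show _ * _ = _ * _
    rw [← map_mul, ← map_mul, ← mul_one (σ (x * z)), ← this, ← map_mul, mul_inv_cancel_left]
  have hzp : σ z ^ p = 1 := by
    rw [← map_pow, ← MonoidHom.mem_ker, ← QuotientGroup.eq_one_iff, QuotientGroup.mk_pow, ← ho,
      pow_orderOf_eq_one]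
  have hz1 : z ∉ σ.ker := fun e => ne_one_of_orderOf_eq ho ((QuotientGroup.eq_one_iff z).2 e)
  set T := fix σ (zpowers z)
  have hT : ∀ k, ∀ u ∈ T, σ k u ∈ T := fun k u hu => mem_fix_zp.2 (by
    rw [← End.mul_apply, (hz k).eq, End.mul_apply, mem_fix_zp.1 hu])
  have hlt : σ.ker < (resRep σ T hT).ker := by
    refine lt_of_le_of_ne (fun g hg => ?_) (fun e => hz1 (e ▸ ?_))
    · ext u; rw [resRep_apply, show σ g = 1 from hg]; rfl
    · ext u; rw [resRep_apply]; exact mem_fix_zp.1 u.2
  have h1 := ih _ (hn ▸ index_strictAnti hlt) T (resRep σ T hT) rfl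
  simp only [finrank_fix_resRep] at h1
  have h2 : finrank F (T ⊓ fix σ ⊤ : Submodule F W) ≤ finrank F (fix σ ⊤) :=
    Submodule.finrank_mono inf_le_right
  have h3 := sum_le_sum fun x (_ : x ∈ univ) => lin_step σ hp hz hzp x
  rw [sum_add_distrib, sum_add_distrib, sum_comm, ← mul_sum] at h3
  have e : ∀ i : Fin p, ∑ x, finrank F (fix σ (zpowers (x * z ^ (i : ℕ)))) =
      ∑ x, finrank F (fix σ (zpowers x)) := fun i =>
    Equiv.sum_comp (Equiv.mulRight (z ^ (i : ℕ))) fun x => finrank F (fix σ (zpowers x))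
  simp only [e, sum_const, card_univ, Fintype.card_fin, smul_eq_mul] at h3
  rw [← Nat.card_eq_fintype_card] at h3
  have h4 := Nat.mul_le_mul_left ((p - 1) * Nat.card P) h2
  exact Nat.le_of_add_le_add_right (h3.trans (by
    rw [add_assoc]; exact Nat.add_le_add_left (h1.trans (by rw [add_comm]; exact Nat.add_le_add_right h4 _)) _))
end lin

section grp
variable {P : Type*} [Group P] [Fintype P] {X : Type*} [Group X] [Finite X] {p : ℕ} [Fact p.Prime]

theorem fix_solv (hP : IsPGroup p P) (f : P →* X) (M : Subgroup X) (hM : Group.IsSolvable M)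
    (hn : f.range ≤ NN(M)) (hc : (Nat.card M).Coprime p) :
    (∏ x, Nat.card (M ⊓ CC(zpowers (f x)) : Subgroup X)) ^ p ≤
      Nat.card M ^ Nat.card P * Nat.card (M ⊓ CC(f.range) : Subgroup X) ^ ((p - 1) * Nat.card P) := by
  induction M using WellFoundedLT.induction with
  | ind M ih =>
  by_cases h : M = ⊥
  · subst h; simp
  obtain ⟨k, hk, hkM, hlt⟩ := exists_homKer_lt (H1.commutator_self_lt hM h)
  haveI : Fact k.Prime := ⟨hk⟩
  let F := ZMod k
  have hlt := hlt F
  have h1 := ih _ hlt (H1.isSolvable_of_le hM hlt.le)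
    (hn.trans (normalizer_le_normalizer_homKer M)) (hc.coprime_dvd_left (card_dvd_of_le hlt.le))
  have hpg : ∀ S : Subgroup X, S ≤ f.range → (Nat.card S).Coprime (Nat.card M) := fun S hS => by
    obtain ⟨m, hm⟩ := IsPGroup.iff_card.1 ((hP.of_surjective _ f.rangeRestrict_surjective).to_le hS)
    rw [hm]; exact hc.symm.pow_left _
  have e : ∀ S : Subgroup X, S ≤ f.range → k ^ finrank F (homFix F M S) *
      Nat.card (homKer F M ⊓ CC(S) : Subgroup X) = Nat.card (M ⊓ CC(S) : Subgroup X) := fun S hS =>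
    pow_finrank_homFix k (hS.trans hn) (hpg S hS) (Or.inr hM)
      (natCast_ne_zero_of_coprime F hk hkM (hpg S hS).symm)
  let σ : P →* End F (homSp F M ⊥) := (homRep F M f.range hn).comp f.rangeRestrict
  have e2 : ∀ S : Subgroup P, fix σ S = homFix F M (S.map f) := fun S => by
    have : S.map f = (S.map f.rangeRestrict).map f.range.subtype := by rw [Subgroup.map_map]; rfl
    rw [this, ← fix_homRep M f.range hn]
    ext w
    exact ⟨by rintro h _ ⟨s, hs, rfl⟩; exact h s hs, fun h s hs => h _ ⟨s, hs, rfl⟩⟩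
  have h2 := lin_main hP (natCast_ne_zero_of_coprime F hk hkM hc) _ _ σ rfl
  rw [e2, ← MonoidHom.range_eq_map,
    sum_congr rfl fun x _ => by rw [e2, MonoidHom.map_zpowers]] at h2
  have e3 := e ⊥ bot_le
  rw [CC_bot, inf_top_eq, inf_top_eq, homFix_bot, finrank_top] at e3
  rw [← e3, ← e f.range le_rfl,
    prod_congr rfl fun x _ => (e (zpowers (f x)) (zpowers_le.2 ⟨x, rfl⟩)).symm, prod_mul_distrib,
    prod_pow_eq_pow_sum, mul_pow, mul_pow, mul_pow, ← pow_mul, ← pow_mul, ← pow_mul,
    mul_mul_mul_comm, ← pow_add]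
  refine Nat.mul_le_mul (Nat.pow_le_pow_right hk.pos ?_) h1
  rw [mul_comm, mul_comm _ (Nat.card P), mul_comm _ ((p - 1) * _)]; exact h2

theorem card_eq_prod {U K : Subgroup X} (hK : K ≤ U) (S : ℕ → Subgroup X)
    (h : ∀ q ∈ (Nat.card U).primeFactors, IsPiHallOf {q} (S q) K) :
    Nat.card K = ∏ q ∈ (Nat.card U).primeFactors, Nat.card (S q) := by
  have h0 : Nat.card K ≠ 0 := Nat.card_pos.ne'
  conv_lhs => rw [← Nat.factorization_prod_pow_eq_self h0]
  rw [Finsupp.prod_of_support_subset _ (s := (Nat.card U).primeFactors)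
    (Nat.primeFactors_mono (card_dvd_of_le hK) Nat.card_pos.ne') _ (by simp)]
  refine prod_congr rfl fun q hq => ?_
  haveI : Fact q.Prime := ⟨Nat.prime_of_mem_primeFactors hq⟩
  obtain ⟨h1, h2, h3⟩ := isPiHallOf_singleton_iff.1 (h q hq)
  exact (isSylowIn_of_not_dvd h1 h2 h3).card_eq_pow.symm

theorem fix_ineq (hP : IsPGroup p P) (f : P →* X) (U : Subgroup X)
    (hn : f.range ≤ NN(U)) (hc : (Nat.card U).Coprime p) :
    (∏ x, Nat.card (U ⊓ CC(zpowers (f x)) : Subgroup X)) ^ p ≤
      Nat.card U ^ Nat.card P * Nat.card (U ⊓ CC(f.range) : Subgroup X) ^ ((p - 1) * Nat.card P) := by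
  have hA : IsPGroup p f.range := hP.of_surjective _ f.rangeRestrict_surjective
  have hpg : ∀ S : Subgroup X, S ≤ f.range → (Nat.card S).Coprime (Nat.card U) := fun S hS => by
    obtain ⟨m, hm⟩ := IsPGroup.iff_card.1 (hA.to_le hS)
    rw [hm]; exact hc.symm.pow_left _
  have hs : ∀ S : Subgroup X, S ≤ f.range → Group.IsSolvable S := fun S hS =>
    haveI := (hA.to_le hS).isNilpotent; inferInstance
  have : ∀ q : ℕ, ∃ Q : Subgroup X, q.Prime → IsPiHallOf {q} Q U ∧ f.range ≤ NN(Q) := fun q => by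
    by_cases hq : q.Prime
    · haveI : Fact q.Prime := ⟨hq⟩
      obtain ⟨Q, h⟩ := exists_invariant_sylowOf q hn (hpg _ le_rfl) (Or.inl (hs _ le_rfl))
      exact ⟨Q, fun _ => h⟩
    · exact ⟨⊥, fun h => absurd h hq⟩
  choose Q hQ using this
  have e : ∀ S : Subgroup X, S ≤ f.range → Nat.card (U ⊓ CC(S) : Subgroup X) =
      ∏ q ∈ (Nat.card U).primeFactors, Nat.card (Q q ⊓ CC(S) : Subgroup X) := fun S hS =>
    card_eq_prod inf_le_left _ fun q hq =>
      have hq' := Nat.prime_of_mem_primeFactors hq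
      haveI : Fact q.Prime := ⟨hq'⟩
      sylowOf_inf_centralizer (hS.trans hn) (hpg S hS) (Or.inl (hs S hS)) (hQ q hq').1
        (hS.trans (hQ q hq').2)
  have e3 := card_eq_prod le_rfl Q fun q hq => (hQ q (Nat.prime_of_mem_primeFactors hq)).1
  rw [e f.range le_rfl, prod_congr rfl fun x _ => e (zpowers (f x)) (zpowers_le.2 ⟨x, rfl⟩),
    prod_comm, ← prod_pow]
  refine le_trans (prod_le_prod' fun q hq => ?_) (le_of_eq (b := Nat.card U ^ Nat.card P * _) (a :=
    ∏ q ∈ (Nat.card U).primeFactors, (Nat.card (Q q) ^ Nat.card P *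
      Nat.card (Q q ⊓ CC(f.range) : Subgroup X) ^ ((p - 1) * Nat.card P))) ?_)
  · have hq' := Nat.prime_of_mem_primeFactors hq
    haveI : Fact q.Prime := ⟨hq'⟩
    haveI := (IsPiHallOf.isPGroup (hQ q hq').1).isNilpotent
    exact fix_solv hP f (Q q) inferInstance (hQ q hq').2
      (hc.coprime_dvd_left (card_dvd_of_le (hQ q hq').1.1))
  · rw [prod_mul_distrib, prod_pow, prod_pow, ← e3]

end grp

variable {G : Type*} [Group G] [Finite G] {p : ℕ} [Fact p.Prime]

theorem card_cm {M M' : Subgroup G} [hM : M.Normal] (h : M ≤ M') (H : Subgroup G) :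
    Nat.card (cm M M' H) = Nat.card M * Nat.card (M'.map (QuotientGroup.mk' M) ⊓
      CC(H.map (QuotientGroup.mk' M)) : Subgroup (G ⧸ M)) := by
  have e : cm M M' H = (M'.map (QuotientGroup.mk' M) ⊓
      CC(H.map (QuotientGroup.mk' M))).comap (QuotientGroup.mk' M) := by
    rw [comap_inf, comap_map_eq_self (by rwa [QuotientGroup.ker_mk'])]
    ext u
    rw [Subgroup.mem_inf]
    refine and_congr_right fun _ => ?_
    simp only [mem_comap, mem_CC, Subgroup.mem_map, forall_exists_index, and_imp,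
      forall_apply_eq_imp_iff₂]
    refine forall₂_congr fun x _ => ?_
    rw [← QuotientGroup.eq_one_iff]
    simp only [QuotientGroup.mk_mul, QuotientGroup.mk_inv, QuotientGroup.mk'_apply,
      one_mul, mul_inv_eq_iff_eq_mul]
  rw [e, card_comap_mk', mul_comm]

theorem cm_ineq {M M' : Subgroup G} [hM : M.Normal] [hM' : M'.Normal] {P : Subgroup G} [Fintype P]
    (hP : IsPGroup p P) (h : M ≤ M') (hc : (M.relIndex M').Coprime p) :
    (∏ x : P, Nat.card (cm M M' (zpowers (x : G)))) ^ p ≤
      Nat.card M' ^ Nat.card P * Nat.card (cm M M' P) ^ ((p - 1) * Nat.card P) := by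
  have e0 := card_cm h ⊥
  rw [cm_bot, Subgroup.map_bot, CC_bot, inf_top_eq] at e0
  have hr : ((QuotientGroup.mk' M).comp P.subtype).range = P.map (QuotientGroup.mk' M) := by
    rw [MonoidHom.range_comp, range_subtype]
  have hn : (M'.map (QuotientGroup.mk' M)).Normal := hM'.map _ (QuotientGroup.mk'_surjective M)
  have := fix_ineq hP ((QuotientGroup.mk' M).comp P.subtype) (M'.map (QuotientGroup.mk' M))
    (le_NN_of_normal _ _) (by
      rw [← card_mul_relIndex h] at e0
      rwa [← Nat.eq_of_mul_eq_mul_left Nat.card_pos e0])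
  rw [hr] at this
  simp only [card_cm h, MonoidHom.map_zpowers]
  rw [e0, prod_mul_distrib, prod_const, card_univ, ← Nat.card_eq_fintype_card, mul_pow, mul_pow,
    mul_pow, mul_mul_mul_comm, ← pow_add, ← pow_mul]
  refine Nat.mul_le_mul (le_of_eq ?_) this
  obtain ⟨q, rfl⟩ := Nat.exists_eq_succ_of_ne_zero (Fact.out : p.Prime).ne_zero
  simp only [Nat.succ_sub_one, Nat.succ_eq_add_one]
  ring

theorem bb_ineq (hG : IsPSolvable p G) {P : Subgroup G} [Fintype P] (hP : IsSylowIn p P ⊤) :
    (∏ x : P, bb P (zpowers (x : G))) ^ p ≤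
      Nat.card G ^ Nat.card P * Nat.card NN(P) ^ ((p - 1) * Nat.card P) := by
  obtain ⟨n, M, h0, hn, hmono, hnormal, hfac⟩ := hG
  have hb : ∀ L : Subgroup G, bb L ⊥ = Nat.card G := fun L =>
    Nat.card_congr (Equiv.subtypeUnivEquiv fun _ => by simp)
  have key : ∀ j : Fin (n + 1), (∏ x : P, bb (P ⊔ M j) (zpowers (x : G))) ^ p ≤
      Nat.card G ^ Nat.card P * bb (P ⊔ M j) P ^ ((p - 1) * Nat.card P) := by
    intro j
    induction j using Fin.reverseInduction with
    | last =>
      simp only [hn, sup_top_eq, bb_top, prod_const, card_univ, ← Nat.card_eq_fintype_card]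
      rw [← pow_add, ← pow_mul]
      obtain ⟨q, rfl⟩ := Nat.exists_eq_succ_of_ne_zero (Fact.out : p.Prime).ne_zero
      simp only [Nat.succ_sub_one, Nat.succ_eq_add_one]
      exact le_of_eq (by ring)
    | cast j ih =>
      have hle : M j.castSucc ≤ M j.succ := hmono (Fin.castSucc_le_succ j)
      haveI := hnormal j.castSucc
      haveI := hnormal j.succ
      rcases hfac j with ⟨m, hm⟩ | hc
      · rwa [sup_eq_of_pow hP hle hm]
      · have h1 := Nat.mul_le_mul ih (cm_ineq hP.isPGroup hle hc)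
        rw [← mul_pow, ← prod_mul_distrib, prod_congr rfl fun (x : P) _ =>
          (bb_step hP hle hc (hP.isPGroup.to_le (zpowers_le.2 x.2))).symm, mul_mul_mul_comm,
          ← mul_pow (bb _ _), ← bb_step hP hle hc hP.isPGroup, prod_mul_distrib, prod_const,
          card_univ, ← Nat.card_eq_fintype_card, mul_pow, mul_pow, mul_mul_mul_comm, ← pow_add,
          ← pow_mul] at h1
        have e : Nat.card P + (p - 1) * Nat.card P = Nat.card P * p := by
          obtain ⟨q, rfl⟩ := Nat.exists_eq_succ_of_ne_zero (Fact.out : p.Prime).ne_zero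
          simp only [Nat.succ_sub_one, Nat.succ_eq_add_one]
          ring
        rw [e] at h1
        exact Nat.le_of_mul_le_mul_right h1 (pow_pos Nat.card_pos _)
  have := key 0
  rw [h0, sup_bot_eq] at this
  convert this using 3
  exact Nat.card_congr (Equiv.subtypeEquivRight fun g =>
    ⟨fun h => (cj_eq_of_mem_NN h).le, mem_NN_of_cj_le⟩)

end H1.Cas
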