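import Cfsg.Agent.H3.S8h
import Cfsg.Prelude.Def_Local

open Subgroup Equiv H3S

namespace H1.D3a

variable {G : Type*} [Group G] [Finite G] {σ t : G} {θ : A5 × A5 →* G}

/-- Transfer by the sign of the coset action. -/
theorem sgn (T : Subgroup G) (tt : t * t = 1) (h4 : ¬ 4 ∣ T.index) (hn : ∀ g, g⁻¹ * t * g ∉ T) :
    ∃ N : Subgroup G, N.index = 2 ∧ t ∉ N := by
  classical
  have := Fintype.ofFinite (G ⧸ T)
  let ρ : G →* Perm (G ⧸ T) := MulAction.toPermHom G (G ⧸ T)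
  have hs : (ρ t).support = Finset.univ := by
    rw [Finset.eq_univ_iff_forall]
    intro q
    obtain ⟨g, rfl⟩ := QuotientGroup.mk_surjective q
    rw [Perm.mem_support]
    intro h
    have h' : ((t * g : G) : G ⧸ T) = (g : G ⧸ T) := h
    have := QuotientGroup.eq.1 h'.symm
    exact hn g (by rwa [← mul_assoc] at this)
  have : Fact (Nat.Prime 2) := ⟨Nat.prime_two⟩
  have h1 := Perm.cycleType_of_pow_prime_eq_one (σ := ρ t) (p := 2)
    (by rw [← map_pow, pow_two, tt, map_one])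
  have h3 := Perm.sum_cycleType (ρ t)
  have h5 := Perm.sign_of_cycleType (ρ t)
  generalize (ρ t).cycleType.card = k at h1 h5
  rw [h1, Multiset.sum_replicate, smul_eq_mul, hs, Finset.card_univ, ← Nat.card_eq_fintype_card] at h3
  rw [h1, Multiset.sum_replicate, smul_eq_mul] at h5
  have hk : Odd (k * 2 + k) := by
    have : T.index = k * 2 := h3.symm
    rw [Nat.odd_iff]; omega
  rw [hk.neg_one_pow] at h5
  refine ⟨(Perm.sign.comp ρ).ker, ?_, by simp [MonoidHom.mem_ker, h5]⟩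
  rw [index_ker]
  have : (Perm.sign.comp ρ).range = ⊤ := by
    rw [eq_top_iff]
    intro x _
    rcases Int.units_eq_one_or x with rfl | rfl
    · exact one_mem _
    · exact ⟨t, h5⟩
  rw [this, card_top]
  simp

def w5 : A5 := ⟨swap 0 1 * swap 1 2 * swap 2 3 * swap 3 4, by rw [Perm.mem_alternatingGroup]; decide⟩

theorem w5_pow : w5 ^ 5 = 1 := Subtype.ext (by decide)
theorem w5_ne : w5 ≠ 1 := fun h => absurd (congrArg Subtype.val h) (by decide)

theorem d1 : ∀ a : Perm (Fin 5), swap 3 4 * a * (swap 3 4)⁻¹ = a → a ^ 5 = 1 → a = 1 := by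
  decide +kernel

theorem d2 : ∀ a : Perm (Fin 5), a * a = 1 → a ≠ 1 → Perm.sign a = 1 →
    ∃ q : Perm (Fin 5), a = q * (swap 0 1 * swap 3 4) * q⁻¹ ∧ Perm.sign q = 1 := by
  decide +kernel

theorem d3 : ∀ a : Perm (Fin 5), a * c5.1 * a⁻¹ = swap 3 4 * c5.1 * (swap 3 4)⁻¹ →
    a * f5.1 * a⁻¹ = swap 3 4 * f5.1 * (swap 3 4)⁻¹ → Perm.sign a = -1 := by
  decide +kernel

theorem cj5 {a b : A5} (a2 : a * a = 1) (a1 : a ≠ 1) (b2 : b * b = 1) (b1 : b ≠ 1) :
    ∃ q : A5, b = q * a * q⁻¹ := by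
  obtain ⟨p, hp, sp⟩ := d2 a.1 (congrArg Subtype.val a2) (fun h => a1 (Subtype.ext h)) a.2
  obtain ⟨q, hq, sq⟩ := d2 b.1 (congrArg Subtype.val b2) (fun h => b1 (Subtype.ext h)) b.2
  refine ⟨⟨q, sq⟩ * (⟨p, sp⟩ : A5)⁻¹, Subtype.ext ?_⟩
  change b.1 = q * p⁻¹ * a.1 * (q * p⁻¹)⁻¹
  rw [hp, hq]; group

theorem sqM (h : H2 θ t σ) {g : G} (hg : In θ t σ g) : g * g ∈ θ.range := by
  obtain ⟨⟨a, b⟩, rfl | rfl | rfl | rfl⟩ := hg
  · exact ⟨_, map_mul _ _ _⟩
  · exact ⟨(a, b) * (τ a, τ b), by rw [map_mul, ← h.ta]; group⟩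
  · exact ⟨(a, b) * (b, a), by rw [map_mul, ← h.sa a b]; group⟩
  · refine ⟨(a, b) * (τ b, τ a), ?_⟩
    rw [map_mul, ← h.ta, ← h.sa a b]
    calc _ = θ (a, b) * t * σ * (θ (a, b) * (σ * t)) := by group
      _ = _ := by rw [← h.ts]; group

theorem tM (h : H2 θ t σ) : t ∉ θ.range := by
  rintro ⟨⟨a, b⟩, e⟩
  have i : t⁻¹ = t := inv_eq_of_mul_eq_one_right h.tt
  have key : ∀ c : A5, a * c * a⁻¹ = τ c := by
    intro c
    have h1 := h.ta c 1
    nth_rewrite 2 [← i] at h1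
    rw [← e, ← map_inv, ← map_mul, ← map_mul] at h1
    exact congrArg Prod.fst (h.inj h1)
  have h1 := d3 a.1 (congrArg Subtype.val (key c5)) (congrArg Subtype.val (key f5))
  have h2 : Perm.sign a.1 = 1 := a.2
  rw [h2] at h1
  exact absurd h1 (by decide)

theorem nsq (h : H2 θ t σ) (x : G) : x * x ≠ t := by
  intro e
  exact tM h (e ▸ sqM h (h.ct x (by rw [← e, mul_assoc])))

theorem n5 (h : H2 θ t σ) {x : G} (x5 : x ^ 5 = 1) (hx : x * t = t * x) : x = 1 := by
  have h1 : x ∈ θ.range := by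
    have : x = (x * x) ^ 3 := by rw [← pow_two, ← pow_mul, pow_succ, x5, one_mul]
    rw [this]
    exact pow_mem (sqM h (h.ct x hx)) 3
  obtain ⟨⟨a, b⟩, rfl⟩ := h1
  have h2 : θ (τ a, τ b) = θ (a, b) := by
    rw [← h.ta, ← hx, mul_assoc, h.tt, mul_one]
  have h3 := h.inj h2
  rw [← map_pow, ← map_one θ] at x5
  have h4 := h.inj x5
  have ha : a = 1 := Subtype.ext (d1 a.1 (congrArg Subtype.val (congrArg Prod.fst h3))
    (congrArg Subtype.val (congrArg Prod.fst h4)))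
  have hb : b = 1 := Subtype.ext (d1 b.1 (congrArg Subtype.val (congrArg Prod.snd h3))
    (congrArg Subtype.val (congrArg Prod.snd h4)))
  rw [ha, hb]; exact map_one θ

theorem d3a (h : H2 θ t σ) (h2 : ¬ 128 ∣ Nat.card G) : ∃ N : Subgroup G, N.index = 2 ∧ t ∉ N := by
  have si : σ⁻¹ = σ := inv_eq_of_mul_eq_one_right h.ss
  have sM : ∀ x ∈ θ.range, σ * x * σ ∈ θ.range := by
    rintro _ ⟨⟨a, b⟩, rfl⟩
    exact ⟨_, (h.sa a b).symm⟩
  have ss' : ∀ x, σ * (σ * x) = x := fun x => by rw [← mul_assoc, h.ss, one_mul]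
  let T : Subgroup G :=
    { carrier := {g | g ∈ θ.range ∨ g * σ ∈ θ.range}
      one_mem' := Or.inl (one_mem _)
      mul_mem' := by
        rintro a b (ha | ha) (hb | hb)
        · exact Or.inl (mul_mem ha hb)
        · exact Or.inr (by rw [mul_assoc]; exact mul_mem ha hb)
        · exact Or.inr (by simpa [mul_assoc, ss'] using mul_mem ha (sM b hb))
        · exact Or.inl (by simpa [mul_assoc, ss', h.ss] using mul_mem ha (sM _ hb))
      inv_mem' := by
        rintro a (ha | ha)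
        · exact Or.inl (inv_mem ha)
        · exact Or.inr (by simpa [mul_assoc, ss', si] using sM _ (inv_mem ha)) }
  have hσ : σ ∉ θ.range := by
    rintro ⟨⟨a, b⟩, e⟩
    have h1 := h.sa w5 1
    nth_rewrite 2 [← si] at h1
    rw [← e, ← map_inv, ← map_mul, ← map_mul] at h1
    have := congrArg Prod.snd (h.inj h1)
    exact w5_ne (by simpa using this.symm)
  have hi : (θ.range.subgroupOf T).index = 2 := by
    rw [index_eq_two_iff]
    refine ⟨⟨σ, Or.inr (by rw [h.ss]; exact one_mem _)⟩, fun b => ?_⟩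
    simp only [mem_subgroupOf, coe_mul]
    by_cases hb : b.1 ∈ θ.range
    · exact Or.inr ⟨hb, fun h' => hσ ((θ.range.mul_mem_cancel_left hb).1 h')⟩
    · exact Or.inl ⟨b.2.resolve_left hb, hb⟩
  have hc : Nat.card T = 7200 := by
    rw [← (θ.range.subgroupOf T).card_mul_index, hi,
      Nat.card_congr (subgroupOfEquivOfLe (fun x hx => Or.inl hx : θ.range ≤ T)).toEquiv,
      ← Nat.card_congr (MonoidHom.ofInjective h.inj).toEquiv, Nat.card_prod,
      nat_card_alternatingGroup]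
    simp [Nat.factorial]
  refine sgn T h.tt (fun h4 => h2 ?_) fun g hg => ?_
  · rw [← T.card_mul_index, hc]
    exact Nat.mul_dvd_mul (show 32 ∣ 7200 by norm_num) h4
  have y2 : g⁻¹ * t * g * (g⁻¹ * t * g) = 1 := by
    calc _ = g⁻¹ * (t * t) * g := by group
      _ = 1 := by rw [h.tt]; group
  have c5' : ∀ m : A5 × A5, m ^ 5 = 1 → θ m * (g⁻¹ * t * g) = g⁻¹ * t * g * θ m → m = 1 := by
    intro m m5 e
    have := n5 h (x := g * θ m * g⁻¹) (by rw [conj_pow, ← map_pow, m5]; simp) (by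
      calc _ = g * (θ m * (g⁻¹ * t * g)) * g⁻¹ := by group
        _ = _ := by rw [e]; group)
    apply h.inj
    rw [map_one]
    simpa using this
  rcases hg with ⟨⟨a, b⟩, e⟩ | ⟨⟨a, b⟩, e⟩
  · rw [← e, ← map_mul, ← map_one θ] at y2
    have y3 := h.inj y2
    rw [← e] at c5'
    by_cases a1 : a = 1
    · have := c5' (w5, 1) (by simp [w5_pow]) (by rw [← map_mul, ← map_mul, a1]; simp)
      exact w5_ne (congrArg Prod.fst this)
    by_cases b1 : b = 1
    · have := c5' (1, w5) (by simp [w5_pow]) (by rw [← map_mul, ← map_mul, b1]; simp)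
      exact w5_ne (congrArg Prod.snd this)
    obtain ⟨q, hq⟩ := cj5 (congrArg Prod.fst y3) a1 (congrArg Prod.snd y3) b1
    apply nsq h (g * (θ (a * q⁻¹, q) * σ) * g⁻¹)
    calc _ = g * (θ (a * q⁻¹, q) * (σ * θ (a * q⁻¹, q) * σ)) * g⁻¹ := by group
      _ = g * θ (a, b) * g⁻¹ := by
        have hq' : b = q * a * q⁻¹ := hq
        rw [h.sa, ← map_mul, hq']; simp [mul_assoc]
      _ = t := by rw [e]; group
  · have e' : g⁻¹ * t * g = θ (a, b) * σ := by rw [e, mul_assoc _ σ σ, h.ss, mul_one]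
    rw [e'] at y2 c5'
    have y3 : θ ((a, b) * (b, a)) = θ 1 := by
      rw [map_mul, ← h.sa a b, map_one, ← y2]; group
    have y4 : a * b = 1 := congrArg Prod.fst (h.inj y3)
    obtain rfl : b = a⁻¹ := eq_inv_of_mul_eq_one_right y4
    have := c5' (w5, a⁻¹ * w5 * a) (by
      refine Prod.ext w5_pow ?_
      have := conj_pow (a := a⁻¹) (b := w5) (i := 5)
      simpa [w5_pow] using this) (by
      have h1 : σ * θ (w5, a⁻¹ * w5 * a) = θ (a⁻¹ * w5 * a, w5) * σ := by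
        rw [← h.sa w5, mul_assoc _ σ σ, h.ss, mul_one]
      rw [mul_assoc (θ (a, a⁻¹)), h1, ← mul_assoc, ← mul_assoc, ← map_mul, ← map_mul]
      simp [mul_assoc])
    exact w5_ne (congrArg Prod.fst this)

end H1.D3a
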