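import Mathlib
import Cfsg.Agent.H9.Metacyc
import Cfsg.Agent.H9.NormalCyc
import Cfsg.Agent.H10.Act

/-! Blackburn: a 2-group of sectional rank at most two is metacyclic. -/

set_option autoImplicit false
open Cfsg Subgroup
open scoped commutatorElement

namespace H1

universe u
variable {G : Type u} [Group G]

def SecTwo (G : Type u) [Group G] : Prop :=
  ∀ H N : Subgroup G, (∀ h ∈ H, h ^ 2 ∈ N) → N.relIndex H ≤ 4

theorem secTwo_of (h : SectionalPRankLE 2 2 G) : SecTwo G := fun H N hN => by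
  haveI : (N.subgroupOf H).Normal := ⟨fun n hn g => by
    have : g * n * g⁻¹ = (g * n) ^ 2 * n⁻¹ * (g⁻¹) ^ 2 := by simp only [sq]; group
    rw [this]
    exact mul_mem (mul_mem (hN _ (g * n).2) (inv_mem hn)) (hN _ (g⁻¹).2)⟩
  have h1 : ∀ q : H ⧸ N.subgroupOf H, q ^ 2 = 1 := fun q => by
    obtain ⟨q, rfl⟩ := QuotientGroup.mk_surjective q
    exact (QuotientGroup.eq_one_iff _).2 (hN _ q.2)
  have := h H (N.subgroupOf H) ⊤ (isMulCommutative_iff'.2 fun a _ b _ => by
    have e : ∀ q : H ⧸ N.subgroupOf H, q⁻¹ = q := fun q =>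
      inv_eq_of_mul_eq_one_right ((sq q).symm.trans (h1 q))
    rw [← e (a * b), mul_inv_rev, e, e]) fun a _ => h1 a
  rwa [card_top] at this

theorem SecTwo.quot (h : SecTwo G) {Q : Type u} [Group Q] (f : G →* Q) (hf : Function.Surjective f) :
    SecTwo Q := fun H N hN => by
  have := h (H.comap f) (N.comap f) fun x hx => by rw [mem_comap, map_pow]; exact hN _ hx
  rwa [relIndex_comap, map_comap_eq_self_of_surjective hf] at this

theorem SecTwo.step [Finite G] (h : SecTwo G) {c : G} (hc : ∀ g ∈ commutator G, g = 1 ∨ g = c)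
    (hcc : c ∈ commutator G) (hZ : ∀ g : G, g ^ 2 ∈ center G) (hcZ : c ∈ center G)
    (hn : ∀ g, g ^ 2 ≠ c) {x y : G} (hxy : ¬ Commute x y) : ∃ y', y' ^ 2 = 1 ∧ ¬ Commute x y' := by
  let A := zpowers x ⊔ center G
  have hA : ∀ a ∈ A, Commute x a := fun a ha => by
    have : A ≤ centralizer {x} := sup_le (zpowers_le.2 (mem_centralizer_singleton_iff.2 rfl))
      (center_le_centralizer _)
    exact (mem_centralizer_singleton_iff.1 (this ha)).symm
  have hAA : ∀ a ∈ A, ∀ b ∈ A, Commute a b := fun a ha b hb => by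
    have : A ≤ centralizer {b} := sup_le (zpowers_le.2 (mem_centralizer_singleton_iff.2 (hA b hb)))
      (center_le_centralizer _)
    exact mem_centralizer_singleton_iff.1 (this ha)
  let N : Subgroup G :=
    { carrier := {g | ∃ s ∈ A, s ^ 2 = g}
      one_mem' := ⟨1, one_mem _, one_pow _⟩
      mul_mem' := by
        rintro _ _ ⟨s, hs, rfl⟩ ⟨t, ht, rfl⟩
        exact ⟨s * t, mul_mem hs ht, (hAA s hs t ht).mul_pow 2⟩
      inv_mem' := by
        rintro _ ⟨s, hs, rfl⟩
        exact ⟨s⁻¹, inv_mem hs, inv_pow _ _⟩ }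
  have hNZ : N ≤ center G := by rintro _ ⟨s, -, rfl⟩; exact hZ s
  have h1 := h A N fun a ha => ⟨a, ha, rfl⟩
  have h2 : (center G).relIndex A ≠ 1 := fun e => hxy
    (mem_center_iff.1 (relIndex_eq_one.1 e (mem_sup_left (mem_zpowers x))) y).symm
  have h3 := relIndex_mul_relIndex N (center G) A hNZ le_sup_right
  have h4 : (center G).relIndex A ≠ 0 := index_ne_zero_of_finite
  have h5 : N.relIndex (center G) ≠ 1 := fun e => by
    obtain ⟨s, -, hs⟩ := relIndex_eq_one.1 e hcZ
    exact hn s hs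
  have h6 : N.relIndex (center G) ≠ 0 := index_ne_zero_of_finite
  have h7 : N.relIndex (center G) = 2 := by
    by_contra h7
    have : 3 * 2 ≤ N.relIndex (center G) * (center G).relIndex A :=
      Nat.mul_le_mul (by omega) (by omega)
    omega
  obtain ⟨s, hs, d, hd, e⟩ : ∃ s ∈ A, ∃ d ∈ commutator G, s ^ 2 = y ^ 2 * d := by
    by_cases h8 : y ^ 2 ∈ N
    · obtain ⟨s, hs, e⟩ := h8
      exact ⟨s, hs, 1, one_mem _, by rw [e, mul_one]⟩
    · obtain ⟨s, hs, e⟩ := (mul_mem_iff_of_index_two h7 (a := ⟨_, hZ y⟩) (b := ⟨c, hcZ⟩)).2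
        (iff_of_false h8 fun ⟨s, _, hs⟩ => hn s hs)
      exact ⟨s, hs, c, hcc, e⟩
  refine ⟨y * s⁻¹, (hc _ ?_).resolve_right (hn _), fun h => hxy ?_⟩
  · rw [← Abelianization.ker_of, MonoidHom.mem_ker] at hd ⊢
    rw [map_pow, map_mul, mul_pow, map_inv, inv_pow, ← map_pow _ s, e, map_mul, hd, map_pow]
    simp
  · simpa using h.mul_right (hA s hs)

theorem SecTwo.isMetacyclic {G : Type u} [Group G] [Finite G] (hG : IsPGroup 2 G) (hr : SecTwo G) :
    IsMetacyclic G := by
  induction hn : Nat.card G using Nat.strong_induction_on generalizing G with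
  | _ n ih =>
  have h : (powerClosure 2 1 (⊤ : Subgroup G)).index ≤ 2 ^ 2 := by
    rw [← relIndex_top_right]
    exact hr _ _ fun g _ => subset_closure ⟨g, trivial, rfl⟩
  by_cases hN : ⁅commutator G, (⊤ : Subgroup G)⁆ ⊔ powerClosure 2 1 (commutator G) = ⊥
  · rw [sup_eq_bot_iff] at hN
    by_cases hU : powerClosure 2 1 (⊤ : Subgroup G) = ⊤
    · have := H9.eq_top_of_sup_powerClosure hG (L := ⊥) (by rw [hU, bot_sup_eq])
      exact H9.isMetacyclic_iff.2 ⟨1, 1, by rw [zpowers_one_eq_bot]; infer_instance,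
        by rw [zpowers_one_eq_bot, this, top_sup_eq]⟩
    obtain ⟨x, -, hx⟩ := SetLike.exists_of_lt (lt_top_iff_ne_top.2 hU)
    obtain ⟨y, hy⟩ := H9.exists_generator_pair hG h hx
    have hDZ : ∀ d ∈ commutator G, d ∈ center G := fun d hd => mem_center_iff.2 fun g => by
      have := commutator_mem_commutator hd (mem_top g)
      rw [hN.1, mem_bot, commutatorElement_eq_one_iff_mul_comm] at this
      exact this.symm
    have hD2 : ∀ d ∈ commutator G, d ^ 2 = 1 := fun d hd =>
      mem_bot.1 (hN.2 ▸ subset_closure ⟨d, hd, rfl⟩)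
    have hcc : ∀ a b : G, ⁅a, b⁆ ∈ commutator G := fun a b =>
      commutator_mem_commutator (mem_top a) (mem_top b)
    haveI : (zpowers ⁅x, y⁆).Normal := H9.normal_of_le_center (zpowers_le.2 (hDZ _ (hcc x y)))
    have hD : commutator G ≤ zpowers ⁅x, y⁆ := by
      rw [_root_.commutator_def, ← hy, ← H9.closure_pair_eq]
      refine H9.commutator_closure_le ?_
      rintro s (rfl | rfl) u (rfl | rfl)
      · simp
      · exact mem_zpowers _
      · exact inv_mem_iff.1 (by rw [commutatorElement_inv]; exact mem_zpowers _)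
      · simp
    have key : ∀ a, a ∉ powerClosure 2 1 (⊤ : Subgroup G) → ⁅x, y⁆ ∈ zpowers a → IsMetacyclic G :=
      fun a ha h1 => by
        obtain ⟨b, hb⟩ := H9.exists_generator_pair hG h ha
        exact H9.isMetacyclic_iff.2 ⟨a, b, H9.normal_of_commutator_le (N := zpowers a)
          ((commutator_mono le_top le_rfl).trans (hD.trans (zpowers_le.2 h1))) le_rfl, hb⟩
    by_cases hxy : ⁅x, y⁆ = 1
    · exact key x hx (hxy ▸ one_mem _)
    obtain ⟨C, hC, hcC, hmax⟩ := H1.exists_maximal_ge (fun C : Subgroup G => IsCyclic C)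
      (N := zpowers ⁅x, y⁆) inferInstance
    obtain ⟨a, rfl⟩ := (Subgroup.isCyclic_iff_exists_zpowers_eq_top C).1 hC
    refine key a (fun ha => ?_) (hcC (mem_zpowers _))
    have h1 : ∀ g, a ∉ zpowers (g ^ 2) := fun g hg => by
      have h4 := hmax (zpowers g) inferInstance (zpowers_le.2
        (zpowers_le.2 (pow_mem (mem_zpowers g) 2) hg))
      obtain ⟨k, hk⟩ := zpowers_le.2 hg (h4 ▸ mem_zpowers g)
      have h5 : g ∈ (⊥ : Subgroup G) := H9.mem_of_zpow_mem_of_isPGroup hG (j := 2 * k - 1)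
        (by omega) (by
          simp only at hk
          rw [zpow_sub, zpow_mul, zpow_ofNat, hk]; simp)
      rw [← h4, mem_bot.1 h5, zpowers_one_eq_bot] at hcC
      exact hxy (hcC (mem_zpowers _))
    have hc : ∀ g ∈ commutator G, g = 1 ∨ g = ⁅x, y⁆ := fun g hg => by
      obtain ⟨k, rfl⟩ := hD hg
      have := hD2 _ (hcc x y)
      rcases Int.even_or_odd' k with ⟨m, rfl | rfl⟩
      · left; simp only [zpow_mul, zpow_ofNat, this, one_zpow]
      · right; simp only [zpow_add, zpow_mul, zpow_ofNat, this, one_zpow, one_mul, pow_one]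
    have : powerClosure 2 1 (⊤ : Subgroup G) ≤
        (powMonoidHom 2).range.comap (Abelianization.of (G := G)) := (closure_le _).2 (by
      rintro _ ⟨g, -, rfl⟩
      exact ⟨Abelianization.of g, by simp⟩)
    obtain ⟨g, hg⟩ := this ha
    obtain ⟨g, rfl⟩ := QuotientGroup.mk_surjective g
    have h2 : (g ^ 2)⁻¹ * a ∈ commutator G := QuotientGroup.eq.1 hg
    obtain ⟨k, hk⟩ := hcC (mem_zpowers _)
    simp only at hk
    rcases hc _ h2 with h3 | h3
    · exact h1 g (inv_mul_eq_one.1 h3 ▸ mem_zpowers _)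
    by_cases h4 : (2 : ℤ) ∣ k
    · refine h1 g (H9.mem_of_zpow_mem_of_isPGroup hG (j := 1 - k) (by omega) ?_)
      rw [zpow_sub, zpow_one, hk, ← h3]
      simp
    have hn : ∀ g, g ^ 2 ≠ ⁅x, y⁆ := fun g e =>
      h1 g (H9.mem_of_zpow_mem_of_isPGroup hG h4 (by rw [hk, e]; exact mem_zpowers _))
    have hZ : ∀ g : G, g ^ 2 ∈ center G := fun g => mem_center_iff.2 fun z => by
      have e1 := mem_center_iff.1 (hDZ _ (hcc g z)) g
      have e2 := hD2 _ (hcc g z)
      rw [← H10.commutator_pow_of_commute e1, commutatorElement_eq_one_iff_mul_comm] at e2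
      exact e2.symm
    obtain ⟨y', y1, y2⟩ := hr.step hc (hcc x y) hZ (hDZ _ (hcc x y)) hn
      (mt commutatorElement_eq_one_iff_commute.2 hxy)
    obtain ⟨x', x1, x2⟩ := hr.step hc (hcc x y) hZ (hDZ _ (hcc x y)) hn fun h => y2 h.symm
    have e : (x' * y') ^ 2 = ⁅x', y'⁆ := by
      rw [commutatorElement_def, inv_eq_of_mul_eq_one_right ((sq _).symm.trans x1),
        inv_eq_of_mul_eq_one_right ((sq _).symm.trans y1), sq, mul_assoc (x' * y')]
    exact hn _ (e.trans ((hc _ (hcc _ _)).resolve_left fun h =>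
      x2 (commutatorElement_eq_one_iff_commute.1 h).symm))
  obtain ⟨t, htN, htZ, ht⟩ := H9.exists_mem_center_orderOf_eq hG hN
  haveI : (zpowers t).Normal := H9.normal_of_le_center (zpowers_le.2 htZ)
  have ht1 : zpowers t ≠ ⊥ := by
    rw [ne_eq, zpowers_eq_bot]
    rintro rfl
    simp at ht
  exact H9.isMetacyclic_of_quotient hG (zpowers t) (zpowers_le.2 htZ)
    (H9.elementary_zpowers (ht ▸ pow_orderOf_eq_one t)).2 (zpowers_le.2 htN)
    (ih _ (hn ▸ H1.card_quotient_lt ht1) (hG.to_quotient _)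
      (hr.quot _ (QuotientGroup.mk'_surjective _)) rfl)

end H1
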