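import Mathlib

/-! Small explicit semidirect products and counting solutions of `x ^ n = 1`. -/

set_option autoImplicit false
open Finset

namespace H1.OT

/-- number of solutions of `x ^ n = 1` -/
noncomputable def ex (n : ℕ) (G : Type) [Group G] : ℕ := Nat.card {g : G // g ^ n = 1}

theorem ex_prod (n : ℕ) (G H : Type) [Group G] [Group H] : ex n (G × H) = ex n G * ex n H := by
  rw [ex, ex, ex, ← Nat.card_prod]
  exact Nat.card_congr ((Equiv.subtypeEquivRight fun x => by
    rw [Prod.ext_iff]; rfl).trans (Equiv.subtypeProdEquivProd (p := fun g : G => g ^ n = 1)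
      (q := fun g : H => g ^ n = 1)))

theorem ex_eq (n : ℕ) (G : Type) [Group G] [Fintype G] [DecidableEq G] :
    ex n G = #{g : G | g ^ n = 1} := by
  rw [ex, Nat.card_eq_fintype_card, Fintype.card_subtype]

theorem card_orderOf_eq {G H : Type} [Group G] [Group H] [Finite G] [Finite H]
    (h : ∀ n, n ≠ 0 → ex n G = ex n H) (n : ℕ) :
    Nat.card {g : G // orderOf g = n} = Nat.card {g : H // orderOf g = n} := by
  classical
  have := Fintype.ofFinite G
  have := Fintype.ofFinite H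
  rw [Nat.card_eq_fintype_card, Fintype.card_subtype, Nat.card_eq_fintype_card, Fintype.card_subtype]
  induction n using Nat.strong_induction_on with
  | _ n ih =>
  rcases eq_or_ne n 0 with rfl | hn
  · rw [filter_false_of_mem fun g _ => (orderOf_pos g).ne',
      filter_false_of_mem fun g _ => (orderOf_pos g).ne']; rfl
  have h1 := h n hn
  have a1 := sum_card_orderOf_eq_card_pow_eq_one (G := G) hn
  have a2 := sum_card_orderOf_eq_card_pow_eq_one (G := H) hn
  rw [ex_eq, ex_eq] at h1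
  replace h1 := (a1.trans (by convert h1)).trans a2.symm
  rw [← Nat.insert_self_properDivisors hn,
    sum_insert Nat.self_notMem_properDivisors, sum_insert Nat.self_notMem_properDivisors,
    sum_congr rfl fun m hm => ih m (Nat.mem_properDivisors.1 hm).2] at h1
  exact Nat.add_right_cancel h1

theorem pow_gcd_iff {G : Type} [Group G] {g : G} {m : ℕ} (h : g ^ m = 1) (n : ℕ) :
    g ^ n = 1 ↔ g ^ (n.gcd m) = 1 := by
  rw [← orderOf_dvd_iff_pow_eq_one, ← orderOf_dvd_iff_pow_eq_one, Nat.dvd_gcd_iff]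
  exact (and_iff_left (orderOf_dvd_of_pow_eq_one h)).symm

theorem ex_24 (n : ℕ) (G : Type) [Group G] [Fintype G] [DecidableEq G] (h : ∀ g : G, g ^ 24 = 1) :
    ex n G = #{g : G | g ^ (n.gcd 24) = 1} := by
  rw [ex_eq]; exact congrArg _ (filter_congr fun g _ => pow_gcd_iff (h g) n)

theorem ex_24_7 (n : ℕ) (G : Type) [Group G] [Fintype G] [DecidableEq G]
    (h : ∀ g : G, g ^ 7 = 1 ∨ g ^ 24 = 1) :
    ex n G = #{g : G | g ^ (n.gcd 24) = 1} +
      if 7 ∣ n then #{g : G | g ^ 7 = 1 ∧ g ≠ 1} else 0 := by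
  have h7 : ∀ g : G, g ^ 7 = 1 → g ≠ 1 → orderOf g = 7 := fun g h1 h2 =>
    haveI : Fact (Nat.Prime 7) := ⟨by norm_num⟩
    orderOf_eq_prime h1 h2
  have hd : ∀ g : G, g ^ (n.gcd 24) = 1 → g ^ n = 1 := fun g hg => by
    obtain ⟨c, hc⟩ := Nat.gcd_dvd_left n 24
    rw [hc, pow_mul, hg, one_pow]
  rw [ex_eq]
  split_ifs with hn
  · rw [← card_union_of_disjoint, ← filter_or]
    · refine congrArg _ (filter_congr fun g _ => ⟨fun hg => ?_, ?_⟩)
      · rcases h g with h1 | h1
        · by_cases h2 : g = 1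
          · exact Or.inl (by rw [h2, one_pow])
          · exact Or.inr ⟨h1, h2⟩
        · exact Or.inl ((pow_gcd_iff h1 n).1 hg)
      · rintro (h1 | h1)
        · exact hd g h1
        · obtain ⟨c, rfl⟩ := hn
          rw [pow_mul, h1.1, one_pow]
    · rw [disjoint_filter]
      rintro g - h1 ⟨h2, h3⟩
      have := (orderOf_dvd_of_pow_eq_one h1).trans (Nat.gcd_dvd_right n 24)
      rw [h7 g h2 h3] at this
      omega
  · rw [add_zero]
    refine congrArg _ (filter_congr fun g _ => ⟨fun hg => ?_, hd g⟩)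
    rcases h g with h1 | h1
    · by_cases h2 : g = 1
      · rw [h2, one_pow]
      · exact (hn (h7 g h1 h2 ▸ orderOf_dvd_of_pow_eq_one hg)).elim
    · exact (pow_gcd_iff h1 n).1 hg

/-- an action by automorphisms -/
structure Act (N K : Type) [Group N] [Group K] where
  φ : K → N → N
  mul : ∀ k x y, φ k (x * y) = φ k x * φ k y
  comp : ∀ k l x, φ (k * l) x = φ k (φ l x)
  one : ∀ x, φ 1 x = x

/-- semidirect product -/
@[ext] structure SD {N K : Type} [Group N] [Group K] (a : Act N K) where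
  n : N
  k : K

section
variable {N K : Type} [Group N] [Group K] (a : Act N K)

theorem Act.map_one (k : K) : a.φ k 1 = 1 := by
  have := a.mul k 1 1
  rw [mul_one] at this
  exact left_eq_mul.1 this

instance : Mul (SD a) := ⟨fun x y => ⟨x.n * a.φ x.k y.n, x.k * y.k⟩⟩
instance : One (SD a) := ⟨⟨1, 1⟩⟩
instance : Inv (SD a) := ⟨fun x => ⟨a.φ x.k⁻¹ x.n⁻¹, x.k⁻¹⟩⟩

instance : Group (SD a) := Group.ofLeftAxioms
  (fun x y z => SD.ext (show x.n * a.φ x.k y.n * a.φ (x.k * y.k) z.n =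
    x.n * a.φ x.k (y.n * a.φ y.k z.n) by rw [a.mul, a.comp, mul_assoc]) (mul_assoc _ _ _))
  (fun x => SD.ext (show 1 * a.φ 1 x.n = x.n by rw [a.one, one_mul]) (one_mul _))
  (fun x => SD.ext (show a.φ x.k⁻¹ x.n⁻¹ * a.φ x.k⁻¹ x.n = 1 by
    rw [← a.mul, inv_mul_cancel, a.map_one]) (inv_mul_cancel _))

def SD.equiv : N × K ≃ SD a := ⟨fun x => ⟨x.1, x.2⟩, fun x => (x.n, x.k), fun _ => rfl, fun _ => rfl⟩

instance [DecidableEq N] [DecidableEq K] : DecidableEq (SD a) := fun x y =>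
  decidable_of_iff (x.n = y.n ∧ x.k = y.k) SD.ext_iff.symm
instance [Fintype N] [Fintype K] : Fintype (SD a) := Fintype.ofEquiv _ (SD.equiv a)

def SD.inl : N →* SD a where
  toFun x := ⟨x, 1⟩
  map_one' := rfl
  map_mul' x y := SD.ext (show x * y = x * a.φ 1 y by rw [a.one]) (mul_one _).symm

def SD.snd : SD a →* K where
  toFun x := x.k
  map_one' := rfl
  map_mul' _ _ := rfl

instance [Group.IsSolvable N] [Group.IsSolvable K] : Group.IsSolvable (SD a) :=
  Group.isSolvable_of_ker_le_range (SD.inl a) (SD.snd a) fun x hx =>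
    ⟨x.n, SD.ext rfl (Eq.symm hx)⟩

end

/-- semidirect product of the additive group of a ring by a character -/
@[ext] structure CS {R K : Type} [CommRing R] [Group K] (χ : K →* R) where
  v : R
  k : K

section
variable {R K : Type} [CommRing R] [Group K] (χ : K →* R)

instance : Mul (CS χ) := ⟨fun x y => ⟨x.v + χ x.k * y.v, x.k * y.k⟩⟩
instance : One (CS χ) := ⟨⟨0, 1⟩⟩
instance : Inv (CS χ) := ⟨fun x => ⟨-(χ x.k⁻¹ * x.v), x.k⁻¹⟩⟩

instance : Group (CS χ) := Group.ofLeftAxioms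
  (fun x y z => CS.ext (show x.v + χ x.k * y.v + χ (x.k * y.k) * z.v =
    x.v + χ x.k * (y.v + χ y.k * z.v) by rw [map_mul]; ring) (mul_assoc _ _ _))
  (fun x => CS.ext (show 0 + χ 1 * x.v = x.v by simp) (one_mul _))
  (fun x => CS.ext (show -(χ x.k⁻¹ * x.v) + χ x.k⁻¹ * x.v = 0 by ring) (inv_mul_cancel _))

def CS.equiv : K × R ≃ CS χ := ⟨fun x => ⟨x.2, x.1⟩, fun x => (x.k, x.v), fun _ => rfl, fun _ => rfl⟩

instance [DecidableEq R] [DecidableEq K] : DecidableEq (CS χ) := fun x y =>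
  decidable_of_iff (x.v = y.v ∧ x.k = y.k) CS.ext_iff.symm
instance [Fintype R] [Fintype K] : Fintype (CS χ) := Fintype.ofEquiv _ (CS.equiv χ)

def CS.inl : Multiplicative R →* CS χ where
  toFun x := ⟨x.toAdd, 1⟩
  map_one' := rfl
  map_mul' x y := CS.ext (show x.toAdd + y.toAdd = x.toAdd + χ 1 * y.toAdd by simp) (mul_one _).symm

def CS.snd : CS χ →* K where
  toFun x := x.k
  map_one' := rfl
  map_mul' _ _ := rfl

instance [Group.IsSolvable K] : Group.IsSolvable (CS χ) :=
  Group.isSolvable_of_ker_le_range (CS.inl χ) (CS.snd χ) fun x hx =>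
    ⟨Multiplicative.ofAdd x.v, CS.ext rfl (Eq.symm hx)⟩

theorem CS.pow (x : CS χ) (n : ℕ) :
    x ^ n = ⟨(∑ i ∈ range n, χ x.k ^ i) * x.v, x.k ^ n⟩ := by
  induction n with
  | zero => exact CS.ext (show (0 : R) = _ by simp) (show (1 : K) = _ by simp)
  | succ n ih =>
    rw [pow_succ, ih]
    exact CS.ext (show _ + χ (x.k ^ n) * x.v = _ by rw [sum_range_succ, map_pow]; ring)
      (pow_succ _ _).symm

end

theorem ex_CS {K : Type} [Group K] [Fintype K] [DecidableEq K] (χ : K →* ZMod 7)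
    (h : ∀ g : K, g ^ 24 = 1) (n : ℕ) :
    ex n (CS χ) = 7 * #{g : K | g ^ (n.gcd 24) = 1 ∧ χ g ≠ 1} +
      (if 7 ∣ n then 7 else 1) * #{g : K | g ^ (n.gcd 24) = 1 ∧ χ g = 1} := by
  haveI : Fact (Nat.Prime 7) := ⟨by norm_num⟩
  rw [ex_eq, card_filter, card_filter, card_filter, ← (CS.equiv χ).sum_comp,
    Fintype.sum_prod_type, mul_sum, mul_sum, ← sum_add_distrib]
  refine sum_congr rfl fun k _ => ?_
  have e1 : ∀ v : ZMod 7, (CS.equiv χ (k, v)) ^ n = 1 ↔
      (∑ i ∈ range n, χ k ^ i) * v = 0 ∧ k ^ n = 1 := fun v => by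
    rw [CS.pow, CS.ext_iff]; rfl
  simp only [e1, ← pow_gcd_iff (h k) n]
  by_cases h1 : k ^ n = 1
  · by_cases h2 : χ k = 1
    · by_cases h3 : 7 ∣ n
      · have : (n : ZMod 7) = 0 := (ZMod.natCast_eq_zero_iff n 7).2 h3
        simp [h1, h2, h3, this]
      · have : (n : ZMod 7) ≠ 0 := fun h => h3 ((ZMod.natCast_eq_zero_iff n 7).1 h)
        simp [h1, h2, h3, this]
    · have : (∑ i ∈ range n, χ k ^ i) = 0 := by
        have h3 := mul_geom_sum (χ k) n
        rw [← map_pow, h1, map_one, sub_self] at h3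
        exact (mul_eq_zero.1 h3).resolve_left (sub_ne_zero.2 h2)
      simp [h1, h2, this]
  · simp [h1]

end H1.OT
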