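import Mathlib
import Cfsg.Agent.H1.OType

/-! The groups of P. Müller's example. -/

set_option autoImplicit false
set_option maxRecDepth 100000
open Finset

namespace H1.OT

abbrev C (n : ℕ) := Multiplicative (ZMod n)
abbrev Q (n : ℕ) := QuaternionGroup n

instance : Group.IsSolvable (Q 2) :=
  haveI := (IsPGroup.of_card (p := 2) (n := 3) (G := Q 2)
    (by rw [Nat.card_eq_fintype_card, QuaternionGroup.card]; rfl)).isNilpotent
  inferInstance
instance : Group.IsSolvable (Q 4) :=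
  haveI := (IsPGroup.of_card (p := 2) (n := 4) (G := Q 4)
    (by rw [Nat.card_eq_fintype_card, QuaternionGroup.card]; rfl)).isNilpotent
  inferInstance

def c3 : C 3 →* ZMod 7 where
  toFun x := 2 ^ x.toAdd.val
  map_one' := by decide
  map_mul' := by decide +kernel

def c4 : C 4 →* ZMod 7 where
  toFun x := (-1) ^ x.toAdd.val
  map_one' := by decide
  map_mul' := by decide +kernel

def qi : Q 4 → ℕ
  | .a i => i.val
  | .xa i => i.val

def q3 : Q 4 →* ZMod 3 where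
  toFun x := (-1) ^ qi x
  map_one' := by decide +kernel
  map_mul' := by decide +kernel

def q7 : Q 4 →* ZMod 7 where
  toFun x := (-1) ^ qi x
  map_one' := by decide +kernel
  map_mul' := by decide +kernel

/-! `7 : 3` -/
abbrev HA := CS c3

def tHA1 (d : ℕ) : ℕ := if d % 3 = 0 then 2 else 0

theorem ex_HA (n : ℕ) : ex n HA = 7 * tHA1 (n.gcd 24) + (if 7 ∣ n then 7 else 1) * 1 := by
  rw [ex_CS _ (by decide +kernel)]
  have : ∀ d ∈ Nat.divisors 24, #{g : C 3 | g ^ d = 1 ∧ c3 g ≠ 1} = tHA1 d ∧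
      #{g : C 3 | g ^ d = 1 ∧ c3 g = 1} = 1 := by decide +kernel
  obtain ⟨h1, h2⟩ := this _ (Nat.mem_divisors.2 ⟨Nat.gcd_dvd_right n 24, by norm_num⟩)
  rw [h1, h2]

def tb (l : List (ℕ × ℕ)) (d : ℕ) : ℕ := (l.lookup d).getD 0

/-! `C3 × C4 × Q8` -/
abbrev HB := C 3 × C 4 × Q 2

def tHB := tb [(1, 1), (2, 4), (3, 3), (4, 32), (6, 12), (8, 32), (12, 96), (24, 96)]

theorem ex_HB (n : ℕ) : ex n HB = tHB (n.gcd 24) := by
  rw [ex_24 _ _ (by decide +kernel)]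
  have : ∀ d ∈ Nat.divisors 24, #{g : HB | g ^ d = 1} = tHB d := by decide +kernel
  exact this _ (Nat.mem_divisors.2 ⟨Nat.gcd_dvd_right n 24, by norm_num⟩)

/-! `7 : (4 × A4)` -/
abbrev V4 := Multiplicative (ZMod 2 × ZMod 2)
def s4 (x : V4) : V4 := Multiplicative.ofAdd (x.toAdd.2, x.toAdd.1 + x.toAdd.2)
def aA4 : Act V4 (C 3) where
  φ k x := s4^[k.toAdd.val] x
  mul := by decide +kernel
  comp := by decide +kernel
  one := by decide +kernel
abbrev KC := C 4 × SD aA4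
def χC : KC →* ZMod 7 := c4.coprod (c3.comp (SD.snd aA4))
abbrev HC := CS χC

def tHC1 := tb [(1, 0), (2, 0), (3, 8), (4, 8), (6, 16), (8, 8), (12, 40), (24, 40)]
def tHC2 := tb [(1, 1), (2, 8), (3, 1), (4, 8), (6, 8), (8, 8), (12, 8), (24, 8)]

theorem ex_HC (n : ℕ) : ex n HC = 7 * tHC1 (n.gcd 24) + (if 7 ∣ n then 7 else 1) * tHC2 (n.gcd 24) := by
  rw [ex_CS _ (by decide +kernel)]
  have : ∀ d ∈ Nat.divisors 24, #{g : KC | g ^ d = 1 ∧ χC g ≠ 1} = tHC1 d ∧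
      #{g : KC | g ^ d = 1 ∧ χC g = 1} = tHC2 d := by decide +kernel
  obtain ⟨h1, h2⟩ := this _ (Nat.mem_divisors.2 ⟨Nat.gcd_dvd_right n 24, by norm_num⟩)
  rw [h1, h2]

/-! `7 : (3 × (3 : Q16))` -/
abbrev KB := C 3 × CS q3
def χB : KB →* ZMod 7 := c3.coprod (q7.comp (CS.snd q3))
abbrev GB := CS χB

def tGB1 := tb [(1, 0), (2, 0), (3, 6), (4, 12), (6, 12), (8, 24), (12, 84), (24, 120)]
def tGB2 := tb [(1, 1), (2, 2), (3, 3), (4, 8), (6, 6), (8, 8), (12, 24), (24, 24)]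

theorem ex_GB (n : ℕ) : ex n GB = 7 * tGB1 (n.gcd 24) + (if 7 ∣ n then 7 else 1) * tGB2 (n.gcd 24) := by
  rw [ex_CS _ (by decide +kernel)]
  have : ∀ d ∈ Nat.divisors 24, #{g : KB | g ^ d = 1 ∧ χB g ≠ 1} = tGB1 d ∧
      #{g : KB | g ^ d = 1 ∧ χB g = 1} = tGB2 d := by decide +kernel
  obtain ⟨h1, h2⟩ := this _ (Nat.mem_divisors.2 ⟨Nat.gcd_dvd_right n 24, by norm_num⟩)
  rw [h1, h2]

/-! `7 : (SL2(3) ∘ (4 : 4))` -/
def sq8 : Q 2 → Q 2
  | .a i => if i = 0 then .a 0 else if i = 1 then .xa 0 else if i = 2 then .a 2 else .xa 2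
  | .xa i => if i = 0 then .xa 3 else if i = 1 then .a 3 else if i = 2 then .xa 1 else .a 1
def aSL : Act (Q 2) (C 3) where
  φ k x := sq8^[k.toAdd.val] x
  mul := by decide +kernel
  comp := by decide +kernel
  one := by decide +kernel
abbrev SL3 := SD aSL
def iSL : SL3 := ⟨.a 1, 1⟩
def jSL : SL3 := ⟨.a 3, 1⟩
def aK : Act (SL3 × C 4) (C 2) where
  φ k x := if k = 1 then x else (iSL * x.1 * jSL, x.2⁻¹)
  mul k x y := by
    split_ifs
    · rfl
    · refine Prod.ext ?_ (mul_inv _ _)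
      have : jSL * iSL = 1 := by decide +kernel
      show iSL * (x.1 * y.1) * jSL = iSL * x.1 * jSL * (iSL * y.1 * jSL)
      calc iSL * (x.1 * y.1) * jSL = iSL * x.1 * (jSL * iSL) * y.1 * jSL := by
            rw [this]; simp only [mul_assoc, one_mul]
        _ = _ := by simp only [mul_assoc]
  comp := by decide +kernel
  one := by decide +kernel
abbrev KD := SD aK
def χD : KD →* ZMod 7 where
  toFun x := c3 x.n.1.k * c4 x.n.2
  map_one' := by decide +kernel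
  map_mul' x y := by
    have h : ∀ (k : C 2) (z : SL3 × C 4), (aK.φ k z).1.k = z.1.k ∧ c4 (aK.φ k z).2 = c4 z.2 := by
      decide +kernel
    show c3 (x.n.1.k * (aK.φ x.k y.n).1.k) * c4 (x.n.2 * (aK.φ x.k y.n).2) = _
    rw [map_mul, map_mul, (h _ _).1, (h _ _).2]; ring
abbrev GC := CS χD

def tGC1 := tb [(1, 0), (2, 12), (3, 8), (4, 32), (6, 44), (8, 32), (12, 160), (24, 160)]
def tGC2 := tb [(1, 1), (2, 16), (3, 1), (4, 32), (6, 16), (8, 32), (12, 32), (24, 32)]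

theorem ex_GC (n : ℕ) : ex n GC = 7 * tGC1 (n.gcd 24) + (if 7 ∣ n then 7 else 1) * tGC2 (n.gcd 24) := by
  rw [ex_CS _ (by decide +kernel)]
  have : ∀ d ∈ Nat.divisors 24, #{g : KD | g ^ d = 1 ∧ χD g ≠ 1} = tGC1 d ∧
      #{g : KD | g ^ d = 1 ∧ χD g = 1} = tGC2 d := by decide +kernel
  obtain ⟨h1, h2⟩ := this _ (Nat.mem_divisors.2 ⟨Nat.gcd_dvd_right n 24, by norm_num⟩)
  rw [h1, h2]

/-! `AΓL(1,8)` -/
abbrev V8 := Multiplicative (ZMod 2 × ZMod 2 × ZMod 2)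
def s8 (x : V8) : V8 := Multiplicative.ofAdd (x.toAdd.2.2, x.toAdd.1 + x.toAdd.2.2, x.toAdd.2.1)
def f8 (x : V8) : V8 := Multiplicative.ofAdd (x.toAdd.1, x.toAdd.2.2, x.toAdd.2.1 + x.toAdd.2.2)
def aA8 : Act V8 HA where
  φ k x := s8^[k.v.val] (f8^[k.k.toAdd.val] x)
  mul := by decide +kernel
  comp := by decide +kernel
  one := by decide +kernel
abbrev GA := SD aA8

def tGA := tb [(1, 1), (2, 8), (3, 57), (4, 8), (6, 120), (8, 8), (12, 120), (24, 120)]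

theorem ex_GA (n : ℕ) : ex n GA = tGA (n.gcd 24) + if 7 ∣ n then 48 else 0 := by
  rw [ex_24_7 _ _ (by decide +kernel)]
  have : ∀ d ∈ Nat.divisors 24, #{g : GA | g ^ d = 1} = tGA d := by decide +kernel
  rw [this _ (Nat.mem_divisors.2 ⟨Nat.gcd_dvd_right n 24, by norm_num⟩),
    show #{g : GA | g ^ 7 = 1 ∧ g ≠ 1} = 48 by decide +kernel]

end H1.OT
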