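import Mathlib
import Cfsg.Agent.H1.OType2

/-! `GL₃(2) : 2`. -/

set_option autoImplicit false
set_option maxRecDepth 100000
open Finset
open scoped commutatorElement

namespace H1.OT

/-- `3 × 3` matrices over `𝔽₂` -/
@[ext] structure M3 where
  (a b c d e f g h i : ZMod 2)
  deriving DecidableEq

def M3.equiv : ZMod 2 × ZMod 2 × ZMod 2 × ZMod 2 × ZMod 2 × ZMod 2 × ZMod 2 × ZMod 2 × ZMod 2 ≃ M3 :=
  ⟨fun x => ⟨x.1, x.2.1, x.2.2.1, x.2.2.2.1, x.2.2.2.2.1, x.2.2.2.2.2.1, x.2.2.2.2.2.2.1,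
    x.2.2.2.2.2.2.2.1, x.2.2.2.2.2.2.2.2⟩, fun x => (x.a, x.b, x.c, x.d, x.e, x.f, x.g, x.h, x.i),
    fun _ => rfl, fun _ => rfl⟩
instance : Fintype M3 := Fintype.ofEquiv _ M3.equiv

def M3.mul (x y : M3) : M3 :=
  ⟨x.a * y.a + x.b * y.d + x.c * y.g, x.a * y.b + x.b * y.e + x.c * y.h, x.a * y.c + x.b * y.f + x.c * y.i,
   x.d * y.a + x.e * y.d + x.f * y.g, x.d * y.b + x.e * y.e + x.f * y.h, x.d * y.c + x.e * y.f + x.f * y.i,
   x.g * y.a + x.h * y.d + x.i * y.g, x.g * y.b + x.h * y.e + x.i * y.h, x.g * y.c + x.h * y.f + x.i * y.i⟩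
def M3.det (x : M3) : ZMod 2 :=
  x.a * (x.e * x.i - x.f * x.h) - x.b * (x.d * x.i - x.f * x.g) + x.c * (x.d * x.h - x.e * x.g)
def M3.adj (x : M3) : M3 :=
  ⟨x.e * x.i - x.f * x.h, x.c * x.h - x.b * x.i, x.b * x.f - x.c * x.e,
   x.f * x.g - x.d * x.i, x.a * x.i - x.c * x.g, x.c * x.d - x.a * x.f,
   x.d * x.h - x.e * x.g, x.b * x.g - x.a * x.h, x.a * x.e - x.b * x.d⟩
def M3.tr (x : M3) : M3 := ⟨x.a, x.d, x.g, x.b, x.e, x.h, x.c, x.f, x.i⟩
def M3.one : M3 := ⟨1, 0, 0, 0, 1, 0, 0, 0, 1⟩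

theorem M3.det_mul (x y : M3) : (x.mul y).det = x.det * y.det := by
  simp only [M3.mul, M3.det]; ring

/-- `GL₃(2)` -/
def L3 := {x : M3 // x.det = 1}

instance : DecidableEq L3 := inferInstanceAs (DecidableEq {x : M3 // x.det = 1})
instance : Fintype L3 := inferInstanceAs (Fintype {x : M3 // x.det = 1})
instance : Mul L3 := ⟨fun x y => ⟨x.1.mul y.1, by rw [M3.det_mul, x.2, y.2, mul_one]⟩⟩
instance : One L3 := ⟨⟨M3.one, by decide⟩⟩
theorem M3.det_adj : ∀ x : M3, x.det = 1 → x.adj.det = 1 ∧ x.adj.mul x = M3.one ∧ x.tr.det = 1 := by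
  decide +kernel
instance : Inv L3 := ⟨fun x => ⟨x.1.adj, (M3.det_adj _ x.2).1⟩⟩

instance : Group L3 := Group.ofLeftAxioms
  (fun x y z => Subtype.ext (show (x.1.mul y.1).mul z.1 = x.1.mul (y.1.mul z.1) by
    ext <;> simp only [M3.mul] <;> ring))
  (fun x => Subtype.ext (show M3.one.mul x.1 = x.1 by ext <;> simp [M3.mul, M3.one]))
  (fun x => Subtype.ext (M3.det_adj _ x.2).2.1)

def L3.tr (x : L3) : L3 := ⟨x.1.tr, (M3.det_adj _ x.2).2.2⟩

theorem L3.tr_mul (x y : L3) : (x * y).tr = y.tr * x.tr :=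
  Subtype.ext (show (x.1.mul y.1).tr = y.1.tr.mul x.1.tr by
    ext <;> simp only [M3.mul, M3.tr] <;> ring)

def aL : Act L3 (C 2) where
  φ k x := if k = 1 then x else (x⁻¹).tr
  mul k x y := by
    split_ifs
    · rfl
    · rw [mul_inv_rev, L3.tr_mul]
  comp := by decide +kernel
  one := by decide +kernel

abbrev HD := SD aL

def tHD := tb [(1, 1), (2, 50), (3, 57), (4, 92), (6, 162), (8, 176), (12, 204), (24, 288)]

theorem HD_a : ∀ g : HD, g ^ 7 = 1 ∨ g ^ 24 = 1 := by decide +kernel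
theorem HD_b : ∀ d ∈ Nat.divisors 24, #{g : HD | g ^ d = 1} = tHD d := by decide +kernel
theorem HD_c : #{g : HD | g ^ 7 = 1 ∧ g ≠ 1} = 48 := by decide +kernel

theorem ex_HD (n : ℕ) : ex n HD = tHD (n.gcd 24) + if 7 ∣ n then 48 else 0 :=
  (ex_24_7 n HD HD_a).trans (congrArg₂ (· + ·)
    (HD_b _ (Nat.mem_divisors.2 ⟨Nat.gcd_dvd_right n 24, by norm_num⟩))
    (congrArg (fun t => if 7 ∣ n then t else 0) HD_c))

def xL : L3 := ⟨⟨1, 1, 0, 0, 1, 0, 0, 0, 1⟩, by decide⟩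
def yL : L3 := ⟨⟨0, 0, 1, 0, 1, 1, 1, 0, 0⟩, by decide⟩
def zL : L3 := ⟨⟨0, 0, 1, 0, 1, 0, 1, 0, 0⟩, by decide⟩

theorem L3_not_solvable : ¬ Group.IsSolvable L3 := by
  have key : xL = zL * ⁅xL, yL * xL * yL⁻¹⁆ * zL⁻¹ := by decide +kernel
  refine not_isSolvable_of_mem_derivedSeries (show xL ≠ 1 by decide +kernel) fun n => ?_
  induction n with
  | zero => exact Subgroup.mem_top xL
  | succ n ih =>
    rw [key, (derivedSeries_normal _ _).mem_comm_iff, inv_mul_cancel_left]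
    exact Subgroup.commutator_mem_commutator ih ((derivedSeries_normal _ _).conj_mem _ ih _)

theorem ex_eq_muller (n : ℕ) : ex n (GA × GB × GC) = ex n (HA × HB × HC × HD) := by
  rw [ex_prod n GA, ex_prod n GB, ex_prod n HA, ex_prod n HB, ex_prod n HC, ex_GA, ex_GB, ex_GC, ex_HA, ex_HB, ex_HC, ex_HD]
  have h := Nat.mem_divisors.2 ⟨Nat.gcd_dvd_right n 24, by norm_num⟩
  generalize n.gcd 24 = d at h
  split_ifs <;> revert d <;> decide +kernel

theorem muller_not_solvable : ¬ Group.IsSolvable (HA × HB × HC × HD) := fun _ =>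
  L3_not_solvable (Group.isSolvable_of_isSolvable_injective
    (f := (MonoidHom.inr _ _).comp ((MonoidHom.inr _ _).comp ((MonoidHom.inr HC HD).comp (SD.inl aL))))
    (G' := HA × HB × HC × HD) fun _ _ h => congrArg (fun t : HA × HB × HC × HD => t.2.2.2.n) h)

end H1.OT
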