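import Mathlib
import Cfsg.Agent.H1.PGV4

/-! The `P(G,V)`-theorem, part 5: the quaternion algebra argument. -/

set_option autoImplicit false
open Cfsg Subgroup
open scoped commutatorElement

namespace H1.PGV

variable {K A W : Type*} [Group K] [CommGroup A] [AddCommGroup W] [Module (ZMod 2) W]

theorem Cen.add {D : Dat K A (En W)} {a : A} {S : Subgroup A} {x y : En W} (hx : Cen D a S x)
    (hy : Cen D a S y) : Cen D a S (x + y) :=
  ⟨fun k => (hx.1 k).add_left (hy.1 k), hx.2.1.add_left hy.2.1,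
    fun b hb => (hx.2.2 b hb).add_left (hy.2.2 b hb)⟩

theorem Cen.one (D : Dat K A (En W)) (a : A) (S : Subgroup A) : Cen D a S 1 :=
  ⟨fun _ => Commute.one_left _, Commute.one_left _, fun _ _ => Commute.one_left _⟩

namespace FinH
variable {D : Dat K A (En W)} {a : A} {S : Subgroup A} (h : FinH D a S)
include h

theorem cen_range {θ : En W} (hθ : Cen D a S θ) {w : W}
    (hw : w ∈ LinearMap.range ((D.j a : En W) - 1)) : θ w ∈ LinearMap.range ((D.j a : En W) - 1) := by
  obtain ⟨v, rfl⟩ := hw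
  exact ⟨θ v, (LinearMap.congr_fun (hθ.2.1.sub_right (Commute.one_right θ)).eq v).symm⟩

theorem three_le [Finite K] [Finite W] : 3 ≤ Nat.card (LinearMap.range ((D.j a : En W) - 1)) := by
  by_contra hcon
  obtain ⟨w0, hw0, hne⟩ := (Submodule.ne_bot_iff _).1 (mt LinearMap.range_eq_bot.1 h.α_ne)
  have h1 : ∀ w ∈ LinearMap.range ((D.j a : En W) - 1), w = 0 ∨ w = w0 := by
    intro w hw
    by_contra h2
    push Not at h2
    letI := Fintype.ofFinite (LinearMap.range ((D.j a : En W) - 1))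
    refine hcon ?_
    rw [Nat.card_eq_fintype_card]
    exact Fintype.two_lt_card_iff.2 ⟨0, ⟨w0, hw0⟩, ⟨w, hw⟩, fun e => hne (congrArg Subtype.val e).symm,
      fun e => h2.1 (congrArg Subtype.val e).symm, fun e => h2.2 (congrArg Subtype.val e).symm⟩
  obtain ⟨r, n, hr, hr2, hr3, x, hx, hxr⟩ := qs_exists_prime D.qs Nat.prime_two Nat.prime_three
  have hc := h.cen (h.bar_i x)
  have e : (D.i x : En W) * D.i x⁻¹ = 1 := by rw [← Units.val_mul, ← map_mul]; simp
  have h6 : D.i x ^ 6 = 1 := by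
    refine Units.ext ?_
    rw [Units.val_pow_eq_pow_val, Units.val_one]
    generalize (D.i x : En W) = u at *
    generalize (D.i x⁻¹ : En W) = v at *
    rcases h1 _ (h.cen_range hc hw0) with h2 | h2
    · have h3 : u + v = 0 := by_contra fun h3 => hne (h.schur hc h3 h2)
      have h4 : u ^ 2 = 1 := by
        linear_combination (norm := noncomm_ring) u * h3 - e - two (1 : En W)
      rw [show 6 = 2 * 3 from rfl, pow_mul, h4, one_pow]
    · have h3 : u + v + 1 = 0 := by_contra fun h3 => hne (h.schur (hc.add (Cen.one D a S)) h3 (by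
        rw [LinearMap.add_apply, h2]
        exact LinearMap.congr_fun (two (1 : En W)) w0))
      have h4 : u ^ 3 = 1 := by
        linear_combination (norm := noncomm_ring) (u - 1) * u * h3 - (u - 1) * e
      rw [show 6 = 3 * 2 from rfl, pow_mul, h4, one_pow]
  have hcop : (r ^ n).Coprime 6 := Nat.Coprime.pow_left _ (Nat.Coprime.mul_right
    ((Nat.coprime_primes hr Nat.prime_two).2 hr2) ((Nat.coprime_primes hr Nat.prime_three).2 hr3))
  have h7 : D.i x = 1 := by
    have := (pow_gcd_eq_one (a := D.i x) (m := r ^ n)).2 ⟨by rw [← map_pow, hxr, map_one], h6⟩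
    rwa [hcop, pow_one] at this
  exact hx (qs_center D.qs D.nt fun k => h7 ▸ Commute.one_right _)

theorem exists_ts [Finite A] [Finite W] (h2 : ∀ x : A, x ^ 2 = 1) :
    ∃ t s : K, D.i t * D.i t = 1 ∧ D.i s * D.i s = 1 ∧ ¬ Commute (D.i s) (D.i t) ∧
      ∀ b ∈ S, Commute (D.i t) (D.j b) := by
  haveI : Finite (En W) := DFunLike.finite _
  have hJ : IsPGroup 2 (S.map D.j) := (IsPGroup.to_subgroup (fun x => ⟨1, h2 x⟩) S).map _
  have hn : S.map D.j ≤ normalizer (D.i.range : Set (En W)ˣ) := by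
    rintro _ ⟨b, hb, rfl⟩
    refine mem_normalizer_fintype ?_
    rintro _ ⟨k, rfl⟩
    exact ⟨_, (D.hβ b (h.hSB hb) k).symm⟩
  have hd : 2 ∣ Nat.card D.i.range := H1.ft_two_dvd fun hs => by
    have h3 : ⁅D.i.range, D.i.range⁆ = D.i.range := by
      rw [MonoidHom.range_eq_map, ← map_commutator, ← _root_.commutator_def, D.perfect]
    obtain ⟨k, hk⟩ := D.nt
    exact hk (mem_bot.1 (H5.eq_bot_of_perfect_of_solvable h3 hs ▸ (⟨k, rfl⟩ : D.i k ∈ D.i.range)))
  obtain ⟨_, ⟨t, rfl⟩, ho, hc⟩ := exists_fixed_elt hJ hn hd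
  have htt : D.i t * D.i t = 1 := (sq _).symm.trans (orderOf_dvd_iff_pow_eq_one.1 ho.dvd)
  have hcb : ∀ b ∈ S, Commute (D.i t) (D.j b) := fun b hb => hc _ ⟨b, hb, rfl⟩
  by_contra hcon
  have h3 : ∀ k, Commute (D.i (k * t * k⁻¹)) (D.i t) := fun k => by_contra fun h3 =>
    hcon ⟨t, _, htt, by
      simp only [map_mul, map_inv]
      calc _ = D.i k * (D.i t * D.i t) * (D.i k)⁻¹ := by group
        _ = 1 := by rw [htt]; simp, h3, hcb⟩
  have h4 : t ∈ center K := by_contra fun h4 => h4 (qs_center D.qs D.nt fun k =>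
    mem_centralizer_singleton_iff.1 (qs_inn D.qs h4 (M := (centralizer {D.i t}).comap D.i)
      (fun k => by
        rw [mem_comap, commutatorElement_def, map_mul, map_inv]
        exact mem_centralizer_singleton_iff.2 ((h3 k).mul_left (Commute.refl _).inv_left)) k))
  have h5 : ∀ k, Commute t k := fun k => (mem_center_iff.1 h4 k).symm
  have hti : D.i t⁻¹ = D.i t := by rw [map_inv, inv_eq_of_mul_eq_one_right htt]
  have h6 : (D.ϕ a t : En W) - D.i t = 0 := h.eq_zero
    (fun k => ((h5 k).map (D.ϕ a)).units_val.sub_left (h.c2_i t k))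
    (by rw [sub_mul, h.ϕα, hti, sub_self])
  have h7 : Cen D a S ((D.i t : En W) + 1) := Cen.add
    ⟨fun k => ((h5 k).map D.i).units_val, by
      rw [h.ϕ_eq] at h6
      show _ = _
      linear_combination (norm := noncomm_ring) (D.j a : En W) * h6 -
        h.aa * (D.i t : En W) * (D.j a : En W), fun b hb => (hcb b hb).units_val⟩ (Cen.one D a S)
  have h8 : (D.i t : En W) * D.i t = 1 := by rw [← Units.val_mul, htt, Units.val_one]
  have h9 : (D.i t : En W) + 1 = 0 := by_contra fun h9 => h9 (h.cancel h7 h9 (by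
    linear_combination (norm := noncomm_ring) h8 + two (1 : En W) + two (D.i t : En W)))
  have : D.i t = 1 := Units.ext (by
    rw [Units.val_one]; linear_combination (norm := noncomm_ring) h9 - two (1 : En W))
  rw [this, orderOf_one] at ho
  exact absurd ho (by norm_num)

theorem final [Finite K] [Finite A] [Finite W] (h2 : ∀ x : A, x ^ 2 = 1) {b0 : A} (hb0 : b0 ∈ S)
    (hβ0 : D.β b0 ≠ 1) {C : Subgroup A} (hC : ∀ b ∈ S, D.β b = 1 → b ∈ C) :
    ∃ w, 3 ≤ w ∧ Nat.card S ≤ Nat.card C * w ∧ w ^ 2 * Nat.card (fx D.j S) ≤ Nat.card W := by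
  refine ⟨_, h.three_le, ?_⟩
  obtain ⟨t, s, htt, hss, hst, htb⟩ := h.exists_ts h2
  have binv : ∀ k, D.i k * D.i k = 1 → Bar D a (D.i k) (D.i k) := fun k hk => by
    have := h.bar_i k
    rwa [map_inv, inv_eq_of_mul_eq_one_right hk] at this
  have sq0 : ∀ k, D.i k * D.i k = 1 → ((D.i k : En W) + 1) * (D.i k + 1) = 0 := fun k hk => by
    have h8 : (D.i k : En W) * D.i k = 1 := by rw [← Units.val_mul, hk, Units.val_one]
    linear_combination (norm := noncomm_ring) h8 + two (1 : En W) + two (D.i k : En W)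
  have cI : ∀ {θ : En W}, Cen D a S θ → ∀ k, θ * (D.i k + 1) = (D.i k + 1) * θ := fun hθ k =>
    ((hθ.1 k).add_right (Commute.one_right _)).eq
  have be := bar_add (binv t htt) h.bar_one
  have bf := bar_add (binv s hss) h.bar_one
  have ee := sq0 t htt
  have ff := sq0 s hss
  have cθ := h.cen (h.bar_mul be bf)
  obtain ⟨e, he⟩ : ∃ e : En W, e = D.i t + 1 := ⟨_, rfl⟩
  obtain ⟨f, hf⟩ : ∃ f : En W, f = D.i s + 1 := ⟨_, rfl⟩
  rw [← he] at be ee
  rw [← hf] at bf ff
  rw [← he, ← hf] at cθ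
  have ce : ∀ {θ : En W}, Cen D a S θ → θ * e = e * θ := fun hθ => he ▸ cI hθ t
  have cf : ∀ {θ : En W}, Cen D a S θ → θ * f = f * θ := fun hθ => hf ▸ cI hθ s
  obtain ⟨θ, hθ⟩ : ∃ θ : En W, θ = e * f + f * e := ⟨_, rfl⟩
  rw [← hθ] at cθ
  have hθ' : θ = D.i t * D.i s + D.i s * D.i t := by
    rw [hθ, he, hf]
    linear_combination (norm := noncomm_ring) two (D.i t : En W) + two (D.i s : En W) + two (1 : En W)
  have θ0 : θ ≠ 0 := fun h0 => hst (Units.ext (by
    rw [Units.val_mul, Units.val_mul]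
    linear_combination (norm := noncomm_ring) h0 - hθ' - two ((D.i t : En W) * (D.i s : En W))))
  have eb : ∀ b ∈ S, (D.j b : En W) * e = e * D.j b := fun b hb => by
    rw [he]; exact ((htb b hb).units_val.add_left (Commute.one_left _)).symm.eq
  have jj : ∀ b, (D.j b : En W) * D.j b = 1 := fun b => by
    rw [← Units.val_mul, ← map_mul, ← sq, h2, map_one, Units.val_one]
  have hβ : ∀ b ∈ S, ∀ k, (D.j b : En W) * D.i k = D.i (D.β b k) * D.j b := fun b hb k => by
    rw [← D.hβ b (h.hSB hb), ← Units.val_mul, ← Units.val_mul]; simp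
  obtain ⟨δ, hδ⟩ : ∃ δ : A → En W, ∀ b, δ b = D.i (D.β b s) + D.i s := ⟨_, fun _ => rfl⟩
  have hβss : ∀ b ∈ S, D.i (D.β b s) * D.i (D.β b s) = 1 := fun b hb => by
    rw [← D.hβ b (h.hSB hb)]
    calc _ = D.j b * (D.i s * D.i s) * (D.j b)⁻¹ := by group
      _ = 1 := by rw [hss]; simp
  have bδ : ∀ b ∈ S, Bar D a (δ b) (δ b) := fun b hb =>
    hδ b ▸ bar_add (binv _ (hβss b hb)) (binv s hss)
  have fb : ∀ b ∈ S, (D.j b : En W) * f = (f + δ b) * D.j b := fun b hb => by
    rw [hf, hδ]
    linear_combination (norm := noncomm_ring) hβ b hb s - two ((D.i s : En W) * (D.j b : En W))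
  have fδ : ∀ b ∈ S, (f + δ b) * (f + δ b) = 0 := fun b hb => by
    have : f + δ b = D.i (D.β b s) + 1 := by
      rw [hf, hδ]; linear_combination (norm := noncomm_ring) two (D.i s : En W)
    rw [this]; exact sq0 _ (hβss b hb)
  have cδ : ∀ {θ : En W}, Cen D a S θ → ∀ b, θ * δ b = δ b * θ := fun hθ b =>
    hδ b ▸ ((hθ.1 _).add_right (hθ.1 _)).eq
  have eδ : ∀ b ∈ S, e * δ b + δ b * e = 0 := fun b hb => by
    have := (cθ.2.2 b hb).eq
    rw [hθ] at this
    linear_combination (norm := noncomm_ring) -(this + eb b hb * f + e * fb b hb + fb b hb * e +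
      (f + δ b) * eb b hb) * (D.j b : En W) - (e * δ b + δ b * e) * jj b
  obtain ⟨Λ, hΛ⟩ : ∃ Λ : A → En W, ∀ b, Λ b = δ b * (e * f) + f * e * δ b := ⟨_, fun _ => rfl⟩
  obtain ⟨M, hM⟩ : ∃ M : A → En W, ∀ b, M b = δ b * f + f * δ b := ⟨_, fun _ => rfl⟩
  have cΛ : ∀ b ∈ S, Cen D a S (Λ b) := fun b hb =>
    hΛ b ▸ h.cen (h.bar_mul (bδ b hb) (h.bar_mul be bf))
  have cM : ∀ b ∈ S, Cen D a S (M b) := fun b hb => hM b ▸ h.cen (h.bar_mul (bδ b hb) bf)
  have θδ : ∀ b ∈ S, θ * δ b = Λ b + M b * e := fun b hb => by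
    rw [ce (cM b hb), hθ, hΛ, hM]
    linear_combination (norm := noncomm_ring) -eδ b hb * f
  have δ0 : ∀ b ∈ S, Λ b = 0 → δ b = 0 := fun b hb h0 => by
    have e1 := θδ b hb
    rw [h0, zero_add] at e1
    have e2 : δ b * δ b = 0 := h.cancel cθ θ0 (h.cancel cθ θ0 (by
      linear_combination (norm := noncomm_ring) θ * cδ cθ b * δ b + e1 * (θ * δ b) +
        M b * e * e1 - M b * ce (cM b hb) * e + M b * M b * ee))
    have e3 : M b = 0 := by rw [hM]; linear_combination (norm := noncomm_ring) fδ b hb - ff - e2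
    exact h.cancel cθ θ0 (by rw [e1, e3, zero_mul])
  have efe : e * f * e = θ * e := by
    rw [hθ]; linear_combination (norm := noncomm_ring) -f * ee
  have β1 : ∀ b ∈ S, δ b = 0 → D.β b = 1 := fun b hb h0 => by
    have fb' := fb b hb
    rw [h0, add_zero] at fb'
    by_contra hne
    obtain ⟨k0, hk0⟩ := D.nt
    refine hk0 (qs_aut D.qs hne (M := D.i.ker) (fun k => ?_) k0)
    have key : ∀ p p' q q' : En W, Bar D a p p' → Bar D a q q' → D.j b * p = p * D.j b →
        D.j b * p' = p' * D.j b → D.j b * q = q * D.j b → D.j b * q' = q' * D.j b →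
        p * (D.i (D.β b k) - D.i k) * q + q' * (D.i (D.β b k⁻¹) - D.i k⁻¹) * p' = 0 := by
      intro p p' q q' h1 h3 c1 c2 c3 c4
      have := ((h.cen (h.bar_mul (h.bar_mul h1 (h.bar_i k)) h3)).2.2 b hb).eq
      linear_combination (norm := noncomm_ring) -(this + c1 * (D.i k : En W) * q +
        p * hβ b hb k * q + p * (D.i (D.β b k) : En W) * c3 + c4 * (D.i k⁻¹ : En W) * p' +
        q' * hβ b hb k⁻¹ * p' + q' * (D.i (D.β b k⁻¹) : En W) * c2) * (D.j b : En W) -
        (p * (D.i (D.β b k) - D.i k) * q + q' * (D.i (D.β b k⁻¹) - D.i k⁻¹) * p' : En W) * jj b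
    have cX : θ * (D.i (D.β b k) - D.i k) = (D.i (D.β b k) - D.i k) * θ :=
      ((cθ.1 _).sub_right (cθ.1 _)).eq
    have goal : (D.i (D.β b k) : En W) - D.i k = 0 := by
      generalize (D.i (D.β b k) : En W) - D.i k = X at key cX
      generalize (D.i (D.β b k⁻¹) : En W) - D.i k⁻¹ = X' at key
      have Y : ∀ p q : En W, Bar D a p p → Bar D a q q → D.j b * p = p * D.j b →
          D.j b * q = q * D.j b → e * f * p * X * (q * (e * f)) * θ = 0 := by
        intro p q h1 h3 c1 c3
        have := key _ _ _ _ (h.bar_mul (h.bar_mul be bf) h1) (h.bar_mul h3 (h.bar_mul be bf))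
          (((Commute.mul_right (eb b hb) fb').mul_right c1).eq)
          ((Commute.mul_right c1 (Commute.mul_right fb' (eb b hb))).eq)
          ((Commute.mul_right c3 (Commute.mul_right (eb b hb) fb')).eq)
          (((Commute.mul_right fb' (eb b hb)).mul_right c3).eq)
        linear_combination (norm := noncomm_ring) this * (e * f) - f * e * q * X' * p * f * ee * f -
          e * f * p * X * q * efe * f - e * f * p * X * q * ce cθ * f - e * f * p * X * q * e * cf cθ
      have one : (D.j b : En W) * 1 = 1 * D.j b := (Commute.one_right _).eq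
      have y1 := Y 1 1 h.bar_one h.bar_one one one
      have y2 := Y 1 f h.bar_one bf one fb'
      have y3 := Y e 1 be h.bar_one (eb b hb) one
      have y4 := Y e f be bf (eb b hb) fb'
      have l1 : θ * θ = θ * (e * f) + f * (e * f) * e := by
        linear_combination (norm := noncomm_ring) θ * hθ + cf cθ * e - f * efe
      have l2 : θ * θ * θ = e * f * θ * θ + f * (e * f) * θ * e := by
        linear_combination (norm := noncomm_ring) l1 * θ + ce cθ * f * θ + e * cf cθ * θ -
          f * (e * f) * ce cθ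
      have l3 : θ * θ * X * (θ * θ * θ) = 0 := by
        rw [l2]
        nth_rewrite 1 [l1]
        linear_combination (norm := noncomm_ring) θ * y1 * θ + θ * y2 * e + f * y3 * θ + f * y4 * e
      refine h.cancel cθ θ0 (h.cancel cθ θ0 (h.cancel cθ θ0 (h.cancel cθ θ0 (h.cancel cθ θ0 ?_))))
      linear_combination (norm := noncomm_ring) l3 + θ * θ * θ * θ * cX + θ * θ * θ * cX * θ +
        θ * θ * cX * θ * θ
    rw [MonoidHom.mem_ker, map_mul, map_inv, Units.ext (sub_eq_zero.1 goal), mul_inv_cancel]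
  have δb : ∀ b ∈ S, ∀ b' ∈ S, (D.j b : En W) * δ b' = δ b' * D.j b := fun b hb b' hb' =>
    sub_eq_zero.1 (h.cancel cθ θ0 (by
      linear_combination (norm := noncomm_ring) (cθ.2.2 b hb).eq * δ b' + (D.j b : En W) * θδ b' hb' -
        θδ b' hb' * (D.j b : En W) - ((cΛ b' hb').2.2 b hb).eq - ((cM b' hb').2.2 b hb).eq * e +
        M b' * eb b hb))
  have δadd : ∀ b ∈ S, ∀ b' ∈ S, δ (b * b') = δ b + δ b' := fun b hb b' hb' => by
    have e1 := fb _ (mul_mem hb hb')
    have e2 := jj (b * b')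
    rw [map_mul, Units.val_mul] at e1 e2
    linear_combination (norm := noncomm_ring) (-e1 + (D.j b : En W) * fb b' hb' +
      fb b hb * (D.j b' : En W) + δb b hb b' hb' * (D.j b' : En W)) * ((D.j b : En W) * (D.j b' : En W)) -
      (δ (b * b') - δ b - δ b') * e2
  obtain ⟨w0, hw0, hne⟩ := (Submodule.ne_bot_iff _).1 (mt LinearMap.range_eq_bot.1 h.α_ne)
  constructor
  · let ψ : S →* Multiplicative (LinearMap.range ((D.j a : En W) - 1)) := MonoidHom.mk'
      (fun b => Multiplicative.ofAdd ⟨Λ b w0, h.cen_range (cΛ b b.2) hw0⟩) fun b b' => by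
        rw [← ofAdd_add]
        congr 1
        refine Subtype.ext ?_
        show Λ (b * b') w0 = Λ b w0 + Λ b' w0
        rw [← LinearMap.add_apply]
        congr 1
        simp only [hΛ, δadd _ b.2 _ b'.2]
        noncomm_ring
    have h3 : ψ.ker ≤ C.subgroupOf S := fun b hb => hC _ b.2 (β1 _ b.2 (δ0 _ b.2 (by_contra fun h3 =>
      hne (h.schur (cΛ b b.2) h3 (congrArg Subtype.val (ofAdd_eq_one.1 hb))))))
    rw [← card_mul_index ψ.ker, index_ker]
    refine Nat.mul_le_mul ((card_le_of_le h3).trans ?_) (card_le_card_group _)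
    exact Nat.card_le_card_of_injective (fun x => ⟨x.1.1, x.2⟩)
      fun x y e => Subtype.ext (Subtype.ext (congrArg (fun z : C => z.1) e))
  · have Λ0 : Λ b0 ≠ 0 := fun h0 => hβ0 (β1 _ hb0 (δ0 _ hb0 h0))
    let R := LinearMap.range ((D.j a : En W) - 1)
    let g : R × R →+ W ⧸ fx D.j S := (QuotientAddGroup.mk' _).comp
      (AddMonoidHom.coprod ((f ∘ₗ R.subtype : R →ₗ[ZMod 2] W) : R →+ W)
        (((e * f) ∘ₗ R.subtype : R →ₗ[ZMod 2] W) : R →+ W))
    have hfix : ∀ w ∈ R, (D.j b0 : En W) w = w := by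
      rintro _ ⟨v, rfl⟩
      exact LinearMap.congr_fun (mem_Fix.1 (h.hq b0 hb0)) v
    have hK : ∀ k, ∀ w ∈ R, (D.ϕ a k : En W) w = (D.i k⁻¹ : En W) w := by
      rintro k _ ⟨v, rfl⟩
      exact LinearMap.congr_fun (h.ϕα k) v
    have hRt : ∀ w ∈ R, e w ∈ R → w = 0 := fun w hw hew => by
      have h3 : (D.i t : En W) w ∈ R := by
        have := R.sub_mem hew hw
        rwa [he, LinearMap.add_apply, Module.End.one_apply, add_sub_cancel_right] at this
      have h4 := hK s⁻¹ _ h3
      rw [← Module.End.mul_apply, ← (h.c2_i t s⁻¹).eq, Module.End.mul_apply, hK _ _ hw, inv_inv] at h4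
      refine h.schur cθ θ0 ?_
      rw [hθ', LinearMap.add_apply, Module.End.mul_apply, h4]
      exact LinearMap.congr_fun (two ((D.i s : En W) * (D.i t : En W))) w
    have hg : Function.Injective g := (injective_iff_map_eq_zero g).2 fun x hx => by
      have h3 : (D.j b0 : En W) (f x.1 + (e * f) x.2) = f x.1 + (e * f) x.2 :=
        (QuotientAddGroup.eq_zero_iff _).1 hx b0 hb0
      have h4 : δ b0 x.1 + (e * δ b0) x.2 = 0 := by
        have e1 := LinearMap.congr_fun (fb b0 hb0) x.1
        have e2 : (D.j b0 : En W) * (e * f) = (e * f + e * δ b0) * D.j b0 := by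
          linear_combination (norm := noncomm_ring) eb b0 hb0 * f + e * fb b0 hb0
        have e3 := LinearMap.congr_fun e2 x.2
        rw [Module.End.mul_apply, Module.End.mul_apply, hfix _ x.1.2] at e1
        rw [Module.End.mul_apply, Module.End.mul_apply _ (D.j b0 : En W), hfix _ x.2.2] at e3
        rw [map_add, e1, e3, LinearMap.add_apply, LinearMap.add_apply] at h3
        linear_combination (norm := abel) h3
      have h5 : Λ b0 x.1 + e (M b0 x.1 + Λ b0 x.2) = 0 := by
        have e1 : θ * (e * δ b0) = e * Λ b0 := by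
          linear_combination (norm := noncomm_ring) ce cθ * δ b0 + e * θδ b0 hb0 -
            ce (cM b0 hb0) * e + M b0 * ee
        have e2 := congrArg θ h4
        rw [map_add, map_zero, ← Module.End.mul_apply, ← Module.End.mul_apply, e1, θδ b0 hb0,
          ce (cM b0 hb0), LinearMap.add_apply] at e2
        rw [map_add, ← add_assoc]; exact e2
      have h6 := hRt _ (R.add_mem (h.cen_range (cM b0 hb0) x.1.2) (h.cen_range (cΛ b0 hb0) x.2.2))
        (by rw [eq_neg_of_add_eq_zero_right h5]; exact R.neg_mem (h.cen_range (cΛ b0 hb0) x.1.2))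
      rw [h6, map_zero, add_zero] at h5
      have h7 := h.schur (cΛ b0 hb0) Λ0 h5
      rw [h7, map_zero, zero_add] at h6
      exact Prod.ext (Subtype.ext h7) (Subtype.ext (h.schur (cΛ b0 hb0) Λ0 h6))
    have h8 := Nat.card_le_card_of_injective g hg
    rw [Nat.card_prod, ← sq] at h8
    rw [AddSubgroup.card_eq_card_quotient_mul_card_addSubgroup (fx D.j S)]
    exact Nat.mul_le_mul_right _ h8

end FinH

end H1.PGV
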