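import Mathlib
import Cfsg.Agent.H1.PGV5

/-! The `P(G,V)`-theorem, part 6: passing to sections. -/

set_option autoImplicit false
open Cfsg Subgroup
open scoped commutatorElement

namespace H1.PGV

section
variable {F W : Type*} [Field F] [AddCommGroup W] [Module F W]

/-- endomorphisms leaving `U` invariant -/
def Inv (U : Submodule F W) : Subring (Module.End F W) where
  carrier := {X | ∀ v ∈ U, X v ∈ U}
  mul_mem' ha hb v hv := ha _ (hb v hv)
  one_mem' _ hv := hv
  add_mem' ha hb v hv := U.add_mem (ha v hv) (hb v hv)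
  zero_mem' _ _ := U.zero_mem
  neg_mem' ha v hv := U.neg_mem (ha v hv)

def resHom (U : Submodule F W) : Inv U →+* Module.End F U where
  toFun X := X.1.restrict X.2
  map_one' := rfl
  map_mul' _ _ := rfl
  map_zero' := rfl
  map_add' _ _ := rfl

def quoHom (U : Submodule F W) : Inv U →+* Module.End F (W ⧸ U) where
  toFun X := U.mapQ U X.1 X.2
  map_one' := U.mapQ_id
  map_mul' X Y := U.mapQ_comp U U Y.1 X.1 Y.2 X.2
  map_zero' := U.mapQ_zero U
  map_add' _ _ := Submodule.linearMap_qext _ (LinearMap.ext fun _ => rfl)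

end

section
variable {E E' : Type*} [Ring E] [Ring E']

/-- push a representation along a ring hom defined on a subring -/
def push {G : Type*} [Group G] (i : G →* Eˣ) {R : Subring E} (hi : ∀ k, (i k : E) ∈ R)
    (π : R →+* E') : G →* E'ˣ :=
  (π.toMonoidHom.comp (((Units.coeHom E).comp i).codRestrict R hi)).toHomUnits

theorem push_val {G : Type*} [Group G] (i : G →* Eˣ) {R : Subring E} (hi : ∀ k, (i k : E) ∈ R)
    (π : R →+* E') (k : G) : (push i hi π k : E') = π ⟨i k, hi k⟩ := rfl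

variable {K A : Type*} [Group K] [CommGroup A] (D : Dat K A E)

theorem Dat.hβ' {b : A} (hb : b ∈ D.B) (k : K) :
    (D.j b : E) * D.i k * D.j b⁻¹ = D.i (D.β b k) := by
  rw [← D.hβ b hb, map_inv]; rfl

def Dat.map {R : Subring E} (hi : ∀ k, (D.i k : E) ∈ R) (hj : ∀ a, (D.j a : E) ∈ R)
    (π : R →+* E') (nt : ∃ k, π ⟨D.i k, hi k⟩ ≠ 1) : Dat K A E' where
  i := push D.i hi π
  j := push D.j hj π
  B := D.B
  β := D.β
  hβ b hb k := Units.ext (by
    rw [← map_inv, Units.val_mul, Units.val_mul, push_val, push_val, push_val, push_val,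
      ← map_mul, ← map_mul]
    exact congrArg π (Subtype.ext (D.hβ' hb k)))
  hc a ha k l := Units.ext (by
    simp only [← map_inv, Units.val_mul, push_val, ← map_mul]
    have := congrArg Units.val (D.hc a ha k l).eq
    simp only [← map_inv, Units.val_mul] at this
    exact congrArg π (Subtype.ext this))
  qs := D.qs
  nt := nt.imp fun _ h e => h (congrArg Units.val e)

def Dat.res (S : Subgroup A) : Dat K S E where
  i := D.i
  j := D.j.comp S.subtype
  B := D.B.subgroupOf S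
  β s := D.β s
  hβ b hb := D.hβ b hb
  hc a ha := D.hc a ha
  qs := D.qs
  nt := D.nt

variable {R : Subring E} (hi : ∀ k, (D.i k : E) ∈ R) (hj : ∀ a, (D.j a : E) ∈ R)
    (π : R →+* E') (nt : ∃ k, π ⟨D.i k, hi k⟩ ≠ 1)

theorem Dat.map_hq {a b : A} (h : D.j b ∈ Fix ((D.j a : E) - 1)) :
    (D.map hi hj π nt).j b ∈ Fix (((D.map hi hj π nt).j a : E') - 1) := by
  show π _ * (π _ - 1) = π _ - 1
  rw [← map_one π, ← map_sub, ← map_mul]
  exact congrArg π (Subtype.ext (mem_Fix.1 h))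

theorem Dat.map_hδ {a : A} {k : K} (h : D.i k * D.ϕ a k ∈ Fix ((D.j a : E) - 1)) :
    (D.map hi hj π nt).i k * (D.map hi hj π nt).ϕ a k ∈
      Fix (((D.map hi hj π nt).j a : E') - 1) := by
  rw [mem_Fix, Dat.ϕ_apply, ← map_inv] at h ⊢
  show π _ * (π _ * π _ * π _) * (π _ - 1) = π _ - 1
  rw [← map_one π, ← map_sub, ← map_mul, ← map_mul, ← map_mul, ← map_mul]
  exact congrArg π (Subtype.ext h)

end

theorem card_le_mul {G H L : Type*} [AddGroup G] [AddGroup H] [Finite H] [Finite L] (f : G →+ H)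
    (g : f.ker → L) (hg : Function.Injective g) : Nat.card G ≤ Nat.card L * Nat.card H := by
  rw [← AddSubgroup.card_mul_index f.ker, AddSubgroup.index_ker]
  exact Nat.mul_le_mul (Nat.card_le_card_of_injective g hg) (AddSubgroup.card_le_card_addGroup _)

universe u
theorem sec {K A : Type*} [Group K] [Finite K] [CommGroup A] [Finite A] (h2 : ∀ x : A, x ^ 2 = 1)
    {a b0 : A} {S C : Subgroup A} (hA : ∀ x, x ∈ S ∨ x * a ∈ S) (hb0 : b0 ∈ S) (n : ℕ) :
    ∀ {W : Type u} [AddCommGroup W] [Module (ZMod 2) W] [Finite W] (D : Dat K A (En W)),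
    Nat.card W = n → a ∉ D.B → S ≤ D.B → (∀ b ∈ S, D.j b ∈ Fix ((D.j a : En W) - 1)) →
    (∀ k, D.i k * D.ϕ a k ∈ Fix ((D.j a : En W) - 1)) → D.β b0 ≠ 1 →
    (∀ b ∈ S, D.β b = 1 → b ∈ C) →
    ∃ w, 3 ≤ w ∧ Nat.card S ≤ Nat.card C * w ∧ w ^ 2 * Nat.card (fx D.j S) ≤ Nat.card W := by
  induction n using Nat.strong_induction_on with
  | _ n ih =>
  intro W _ _ _ D hn haB hSB hq hδ hβ0 hC
  have haa : a * a = 1 := (sq a).symm.trans (h2 a)
  by_cases hirr : ∀ U : Submodule (ZMod 2) W, (∀ k, ∀ v ∈ U, (D.i k : En W) v ∈ U) →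
    (∀ v ∈ U, (D.j a : En W) v ∈ U) → (∀ b ∈ S, ∀ v ∈ U, (D.j b : En W) v ∈ U) → U = ⊥ ∨ U = ⊤
  · exact FinH.final ⟨haB, haa, hSB, hq, hδ, hirr⟩ h2 hb0 hβ0 hC
  push Not at hirr
  obtain ⟨U, hi, ha, hS, h0, h1⟩ := hirr
  replace hi : ∀ k, (D.i k : En W) ∈ Inv U := hi
  haveI : Finite (W ⧸ U) := Finite.of_surjective _ U.mkQ_surjective
  have hj : ∀ x, (D.j x : En W) ∈ Inv U := fun x => (hA x).elim (hS x) fun h => by
    have : x = x * a * a := by rw [mul_assoc, haa, mul_one]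
    rw [this, map_mul, Units.val_mul]
    exact (Inv U).mul_mem (hS _ h) ha
  have hc := Submodule.card_eq_card_quotient_mul_card U
  have hU : 1 < Nat.card U := by
    have := Submodule.nontrivial_iff_ne_bot.2 h0
    exact Finite.one_lt_card
  have hQ : 1 < Nat.card (W ⧸ U) := by
    have := Submodule.Quotient.nontrivial_iff.2 h1
    exact Finite.one_lt_card
  by_cases nt : ∃ k, resHom U ⟨D.i k, hi k⟩ ≠ 1
  · obtain ⟨w, w1, w2, w3⟩ := ih _ (by rw [← hn, hc]; nlinarith) (D.map hi hj (resHom U) nt) rfl haB hSB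
      (fun b hb => D.map_hq _ _ _ _ (hq b hb)) (fun k => D.map_hδ _ _ _ _ (hδ k)) hβ0 hC
    refine ⟨w, w1, w2, ?_⟩
    have := card_le_mul (L := fx (D.map hi hj (resHom U) nt).j S)
      ((U.mkQ : W →+ W ⧸ U).comp (fx D.j S).subtype)
      (fun x => ⟨⟨x.1.1, (Submodule.Quotient.mk_eq_zero U).1 x.2⟩, fun t ht => Subtype.ext (x.1.2 t ht)⟩)
      fun x y e => Subtype.ext (Subtype.ext (congrArg (fun z => z.1.1) e))
    rw [hc]
    calc _ ≤ w ^ 2 * _ := Nat.mul_le_mul_left _ this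
      _ ≤ _ := by rw [← mul_assoc]; exact Nat.mul_le_mul_right _ w3
  by_cases nt' : ∃ k, quoHom U ⟨D.i k, hi k⟩ ≠ 1
  · obtain ⟨w, w1, w2, w3⟩ := ih _ (by rw [← hn, hc]; nlinarith) (D.map hi hj (quoHom U) nt') rfl haB hSB
      (fun b hb => D.map_hq _ _ _ _ (hq b hb)) (fun k => D.map_hδ _ _ _ _ (hδ k)) hβ0 hC
    refine ⟨w, w1, w2, ?_⟩
    let f : fx D.j S →+ fx (D.map hi hj (quoHom U) nt').j S :=
      ((U.mkQ : W →+ W ⧸ U).comp (fx D.j S).subtype).codRestrict _ fun x t ht =>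
        congrArg U.mkQ (x.2 t ht)
    have := card_le_mul (L := U) f
      (fun x => ⟨x.1.1, (Submodule.Quotient.mk_eq_zero U).1 (congrArg Subtype.val x.2)⟩)
      fun x y e => Subtype.ext (Subtype.ext (congrArg (fun z => z.1) e))
    rw [hc]
    calc _ ≤ w ^ 2 * _ := Nat.mul_le_mul_left _ this
      _ ≤ _ := by rw [mul_left_comm]; exact Nat.mul_le_mul_left _ w3
  push Not at nt nt'
  obtain ⟨k, hk⟩ := D.nt
  have h3 : ∀ k l, ((D.i k : En W) - 1) * (D.i l - 1) = 0 := fun k l => LinearMap.ext fun v => by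
    have e1 : (D.i l : En W) v - v ∈ U := (Submodule.Quotient.eq U).1
      (LinearMap.congr_fun (nt' l) (U.mkQ v))
    exact sub_eq_zero.2 (congrArg Subtype.val (LinearMap.congr_fun (nt k) ⟨_, e1⟩))
  exact (hk (hom_eq_one_of_perfect D.perfect D.i (fun k l => Units.ext (by
    rw [Units.val_mul, Units.val_mul]
    linear_combination (norm := noncomm_ring) h3 k l - h3 l k)) k)).elim

end H1.PGV
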