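import Mathlib
import Cfsg.Agent.H1.PGV6
import Cfsg.Agent.H1.Basic
import Cfsg.Agent.H7.Maschke

/-! The `P(G,V)`-theorem, part 7: Timmesfeld replacement and the core argument. -/

set_option autoImplicit false
open Cfsg Subgroup
open scoped commutatorElement

namespace H1.PGV

theorem add_card_sup_mul {W : Type*} [AddCommGroup W] (X Y : AddSubgroup W) :
    Nat.card (X ⊔ Y : AddSubgroup W) * Nat.card (X ⊓ Y : AddSubgroup W) =
      Nat.card X * Nat.card Y := by
  have := H1.card_sup_mul_card_inf_normal (AddSubgroup.toSubgroup X) (AddSubgroup.toSubgroup Y)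
  rw [← OrderIso.map_sup, ← OrderIso.map_inf] at this; exact this

section
variable {A F W : Type*} [CommGroup A] [Finite A] [Field F] [AddCommGroup W] [Module F W] [Finite W]
  (j : A →* (Module.End F W)ˣ)

/-- the centralizer of `[W, A]` -/
def quad : Subgroup A := ⨅ a, (Fix ((j a : Module.End F W) - 1)).comap j

omit [Finite A] [Finite W] in
theorem mem_quad {s : A} : s ∈ quad j ↔ ∀ a, j s ∈ Fix ((j a : Module.End F W) - 1) :=
  mem_iInf

theorem timm (hoff : ∀ T : Subgroup A, Nat.card T * Nat.card (fx j T) ≤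
    Nat.card A * Nat.card (fx j ⊤)) {Y : AddSubgroup W} (h1 : fx j ⊤ ≤ Y)
    (h2 : ∀ a v, ((j a : Module.End F W) - 1) v ∈ Y) :
    Nat.card A * Nat.card (fx j ⊤) ≤ Nat.card (quad j) * Nat.card (fx j (quad j) ⊓ Y :) := by
  classical
  set m := Nat.card A * Nat.card (fx j ⊤) with hm
  have hm0 : 0 < m := Nat.mul_pos Nat.card_pos Nat.card_pos
  let P : Subgroup A → Prop := fun T => m ≤ Nat.card T * Nat.card (fx j T ⊓ Y :)
  have jc : ∀ a b, (j a : Module.End F W) * j b = j b * j a := fun a b =>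
    ((Commute.all a b).map j).units_val.eq
  let Av : W → Subgroup A := fun v =>
    { carrier := {s | ∀ a, (j s : Module.End F W) (((j a : Module.End F W) - 1) v) =
        ((j a : Module.End F W) - 1) v}
      one_mem' := fun a => by simp
      mul_mem' := fun hs ht a => by rw [map_mul, Units.val_mul, Module.End.mul_apply, ht, hs]
      inv_mem' := fun {s} hs a => by
        conv_lhs => rw [← hs a]
        rw [← Module.End.mul_apply, ← Units.val_mul, ← map_mul]; simp }
  have hv : ∀ v, P (Av v) := fun v => by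
    let X := fx j (Av v) ⊓ Y
    have hX : fx j ⊤ ≤ X := le_inf (fx_anti j le_top) h1
    let f : A ⧸ Av v → X ⧸ (fx j ⊤).addSubgroupOf X := fun x =>
      (⟨((j x.out : Module.End F W) - 1) v, fun t ht => ht _, h2 _ _⟩ : X)
    have hf : Function.Injective f := fun x y e => by
      have e1 := QuotientAddGroup.eq.1 e
      rw [← x.out_eq', ← y.out_eq', QuotientGroup.eq]
      generalize x.out = a at e1
      generalize y.out = b at e1
      intro c
      have e2 : (j c : Module.End F W) _ = _ := e1 c trivial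
      have e3 : (j a⁻¹ : Module.End F W) * j a = 1 := by rw [← Units.val_mul, ← map_mul]; simp
      have e4 : ((j c : Module.End F W) * (-(j a - 1) + (j b - 1)) - (-(j a - 1) + (j b - 1))) v = 0 :=
        sub_eq_zero.2 e2
      have e5 : (j (a⁻¹ * b) : Module.End F W) * (j c - 1) - (j c - 1) =
          j a⁻¹ * (j c * (-(j a - 1) + (j b - 1)) - (-(j a - 1) + (j b - 1))) := by
        rw [map_mul, Units.val_mul]
        linear_combination (norm := noncomm_ring) (j a⁻¹ : Module.End F W) * jc b c -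
          (j a⁻¹ : Module.End F W) * jc a c + e3 * (j c : Module.End F W) - e3
      have e6 := LinearMap.congr_fun e5 v
      rw [Module.End.mul_apply, e4, map_zero] at e6
      exact sub_eq_zero.1 e6
    have h3 := Nat.card_le_card_of_injective f hf
    have h4 := AddSubgroup.card_eq_card_quotient_mul_card_addSubgroup ((fx j ⊤).addSubgroupOf X)
    rw [Nat.card_congr (AddSubgroup.addSubgroupOfEquivOfLe hX).toEquiv] at h4
    show m ≤ _ * Nat.card X
    rw [hm, card_eq_card_quotient_mul_card_subgroup (Av v), h4, mul_comm _ (Nat.card (Av v)), mul_assoc]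
    exact Nat.mul_le_mul_left _ (Nat.mul_le_mul_right _ h3)
  have hinf : ∀ T1, P T1 → ∀ T2, P T2 → P (T1 ⊓ T2) := fun T1 p1 T2 p2 => by
    have e1 := H1.card_sup_mul_card_inf_normal T1 T2
    have e2 := add_card_sup_mul (fx j T1 ⊓ Y) (fx j T2 ⊓ Y)
    have e3 : Nat.card (fx j T1 ⊓ Y ⊔ fx j T2 ⊓ Y :) ≤ Nat.card (fx j (T1 ⊓ T2) ⊓ Y :) :=
      AddSubgroup.card_le_of_le (sup_le (inf_le_inf_right _ (fx_anti j inf_le_left))
        (inf_le_inf_right _ (fx_anti j inf_le_right)))
    have e4 : Nat.card ((fx j T1 ⊓ Y) ⊓ (fx j T2 ⊓ Y) :) ≤ Nat.card (fx j (T1 ⊔ T2)) :=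
      AddSubgroup.card_le_of_le fun w hw t ht => by
        obtain ⟨x, hx, y, hy, rfl⟩ := mem_sup.1 ht
        rw [map_mul, Units.val_mul, Module.End.mul_apply, hw.2.1 y hy, hw.1.1 x hx]
    refine Nat.le_of_mul_le_mul_left ?_ hm0
    calc m * m ≤ _ := Nat.mul_le_mul p1 p2
      _ = Nat.card (T1 ⊔ T2 :) * Nat.card ((fx j T1 ⊓ Y) ⊓ (fx j T2 ⊓ Y) :) *
        (Nat.card (T1 ⊓ T2 :) * Nat.card (fx j T1 ⊓ Y ⊔ fx j T2 ⊓ Y :)) := by
          rw [mul_mul_mul_comm, ← e1, ← e2]; ring
      _ ≤ _ := Nat.mul_le_mul ((Nat.mul_le_mul_left _ e4).trans (hoff _)) (Nat.mul_le_mul_left _ e3)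
  have htop : P ⊤ := by
    show m ≤ _
    rw [inf_eq_left.2 h1, card_top]
  letI := Fintype.ofFinite W
  have := Finset.inf_induction (s := Finset.univ) (f := Av) htop hinf fun v _ => hv v
  have e : Finset.univ.inf Av = quad j := by
    ext s
    rw [Finset.inf_univ_eq_iInf, mem_iInf, mem_quad]
    exact ⟨fun h a => LinearMap.ext fun v => h v a, fun h v a => LinearMap.congr_fun (h a) v⟩
  exact e ▸ this

theorem quad_nt {p : ℕ} [Fact p.Prime] [CharP (Module.End F W) p] (hp : ∀ a : A, a ^ p = 1)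
    (hoff : ∀ T : Subgroup A, Nat.card T * Nat.card (fx j T) ≤ Nat.card A * Nat.card (fx j ⊤))
    {b : A} (hb : j b ≠ 1) : ∃ s ∈ quad j, j s ≠ 1 := by
  by_contra hcon
  push Not at hcon
  let Q : Submodule F W → Prop := fun U => ∃ T : Module.End F W, T ≠ 0 ∧ (∀ w ∈ fx j ⊤, T w = 0) ∧
    (∀ a, Commute T ((j a : Module.End F W) - 1)) ∧ LinearMap.ker T = U
  have jc : ∀ a b, Commute ((j a : Module.End F W) - 1) ((j b : Module.End F W) - 1) := fun a b =>
    (commute_sub_one ((Commute.all a b).map j)).sub_left (Commute.one_left _)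
  obtain ⟨_, ⟨T, h0, h1, h2, rfl⟩, hmax⟩ := exists_maximal_of_wellFoundedGT Q
    ⟨_, (j b : Module.End F W) - 1, fun h => hb (Units.ext (sub_eq_zero.1 h)),
      fun w hw => sub_eq_zero.2 (hw b trivial), jc b, rfl⟩
  have h3 : ∀ a, T * ((j a : Module.End F W) - 1) = 0 := fun a => by_contra fun h3 => by
    have h4 := hmax (y := LinearMap.ker (T * ((j a : Module.End F W) - 1)))
      ⟨_, h3, fun w hw => by
        rw [Module.End.mul_apply, show ((j a : Module.End F W) - 1) w = 0 from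
          sub_eq_zero.2 (hw a trivial), map_zero], fun c => (h2 c).mul_left (jc a c), rfl⟩
      fun w hw => by
        rw [LinearMap.mem_ker, (h2 a).eq, Module.End.mul_apply, LinearMap.mem_ker.1 hw, map_zero]
    have h5 : ∀ n, T * ((j a : Module.End F W) - 1) ^ n ≠ 0 := fun n => by
      induction n with
      | zero => simpa using h0
      | succ n ih =>
        refine fun h => ih (LinearMap.ext fun w => h4 ?_)
        rw [pow_succ', ← mul_assoc] at h
        exact LinearMap.congr_fun h w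
    refine h5 p ?_
    rw [sub_pow_char_of_commute _ (Commute.one_right _), ← Units.val_pow_eq_pow_val, ← map_pow, hp]
    simp
  have h4 := timm j hoff (Y := (LinearMap.ker T).toAddSubgroup) h1
    fun a v => LinearMap.congr_fun (h3 a) v
  have h5 : fx j (quad j) = ⊤ := eq_top_iff.2 fun w _ t ht => by rw [hcon t ht]; rfl
  have h6 := (hoff (quad j)).trans h4
  rw [h5, top_inf_eq] at h6
  have h7 := AddSubgroup.eq_of_le_of_card_ge le_top (Nat.le_of_mul_le_mul_left h6 Nat.card_pos)
  exact h0 (LinearMap.ext fun w => (h7 ▸ AddSubgroup.mem_top w : w ∈ (LinearMap.ker T).toAddSubgroup))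

end

theorem core {K A W : Type*} [Group K] [Finite K] [CommGroup A] [Finite A] [AddCommGroup W]
    [Finite W] {p : ℕ} [hp : Fact p.Prime] [Module (ZMod p) W]
    (D : Dat K A (Module.End (ZMod p) W)) (hA : ∀ a : A, a ^ p = 1) (hB : D.B ≠ ⊤)
    (hC : ∀ b ∈ D.B, D.β b = 1 → D.j b = 1)
    (hoff : ∀ T : Subgroup A, Nat.card T * Nat.card (fx D.j T) ≤
      Nat.card A * Nat.card (fx D.j ⊤)) : False := by
  classical
  haveI := D.charP p
  have hnt : ∀ a ∉ D.B, D.j a ≠ 1 := fun a ha h1 => by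
    obtain ⟨k, hk⟩ := D.nt
    refine hk (hom_eq_one_of_perfect D.perfect D.i (fun x y => ?_) k)
    simpa [Dat.ϕ_apply, h1] using D.i_comm ha x y
  obtain ⟨a0, ha0⟩ : ∃ a, a ∉ D.B := by_contra fun h => hB (eq_top_iff.2 fun a _ =>
    by_contra fun h1 => h ⟨a, h1⟩)
  obtain ⟨s, hs, hs1⟩ := quad_nt D.j hA hoff (hnt a0 ha0)
  have hq : ∀ s ∈ quad D.j, ∀ a, D.j s ∈ Fix ((D.j a : Module.End (ZMod p) W) - 1) :=
    fun s hs => (mem_quad D.j).1 hs
  have hS : ∀ T : Subgroup A, Nat.card T * Nat.card (fx D.j T) ≤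
      Nat.card (quad D.j) * Nat.card (fx D.j (quad D.j)) := fun T => by
    have := timm D.j hoff le_top fun _ _ => trivial
    rw [inf_top_eq] at this
    exact (hoff T).trans this
  generalize quad D.j = S at *
  by_cases h : ∀ b ∈ S ⊓ D.B, D.β b = 1
  · have hsB : s ∉ D.B := fun h1 => hs1 (hC s h1 (h s ⟨hs, h1⟩))
    rcases hp.out.eq_two_or_odd' with rfl | ⟨n, hn⟩
    · exact D.semireg_case hA (C := S ⊓ D.B) inf_le_left (fun c hc => hC c hc.2 (h c hc)) le_rfl
        (fun h1 => hsB (h1 hs)) (fun s hs a _ => hq s hs a) fun T _ => hS T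
    · refine D.odd_case hsB (fun h1 => hsB ?_) (hq s hs s)
      have : s = (s * s) ^ (n + 1) := by
        rw [← sq, ← pow_mul, show 2 * (n + 1) = p + 1 by omega, pow_succ, hA, one_mul]
      rw [this]; exact pow_mem h1 _
  push Not at h
  obtain ⟨b, hb, hβ⟩ := h
  obtain ⟨A0, h0, h1⟩ := H7.exists_complement_of_exponent hp.out hA D.B
  letI := Fintype.ofFinite A0
  have h0' : Disjoint A0 D.B := (disjoint_iff.2 h0).symm
  by_cases h3 : 3 ≤ Nat.card A0
  · exact D.stage1 hb.2 hβ h0' h3 fun a => hq b hb.1 a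
  obtain ⟨a, ha⟩ := ne_bot_iff_exists_ne_one.1 (fun h => hB (by rwa [h, sup_bot_eq] at h1) : A0 ≠ ⊥)
  have h4 : ∀ x : A0, x = 1 ∨ x = a := fun x => by_contra fun h4 => h3 (by
    push Not at h4
    rw [Nat.card_eq_fintype_card]
    exact Fintype.two_lt_card_iff.2 ⟨1, a, x, ha.symm, h4.1.symm, h4.2.symm⟩)
  have haa : a * a = 1 := (h4 _).resolve_right fun h => ha (mul_eq_left.1 h)
  have haa' : (a : A) * a = 1 := congrArg Subtype.val haa
  obtain rfl : p = 2 := by
    have h5 : orderOf (a : A) = p := orderOf_eq_prime (hA a) fun h => ha (Subtype.ext h)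
    rw [← h5]
    exact orderOf_eq_prime ((sq _).trans haa') fun h => ha (Subtype.ext h)
  have haB : (a : A) ∉ D.B := fun h => ha (Subtype.ext (disjoint_def.1 h0' a.2 h))
  have hdec : ∀ x, x ∉ D.B → x * a ∈ D.B := fun x hx => by
    obtain ⟨c, hc, u, hu, rfl⟩ := mem_sup.1 (h1 ▸ mem_top x)
    rcases h4 ⟨u, hu⟩ with h | h
    · rw [show u = 1 from congrArg Subtype.val h, mul_one] at hx; exact (hx hc).elim
    · rwa [show u = a from congrArg Subtype.val h, mul_assoc, haa', mul_one]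
  have hδ : ∀ k, D.i k * D.ϕ a k ∈ Fix ((D.j a : En W) - 1) := fun k => by
    have := D.δ_fix h0' hb.2 hβ a (hq b hb.1 a) k
    have e : (fun _ : A0 => k) = Pi.mulSingle 1 k * Pi.mulSingle a k := funext fun x => by
      rcases h4 x with rfl | rfl
      · simp [Pi.mulSingle_eq_of_ne ha.symm]
      · simp [Pi.mulSingle_eq_of_ne ha]
    rwa [show D.δ h0' k = D.Φ h0' fun _ => k from rfl, e, map_mul, D.Φ_single, D.Φ_single,
      OneMemClass.coe_one, D.ϕ_one] at this
  have h5 : Nat.card S ≤ 2 * Nat.card (S ⊓ D.B :) := by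
    by_cases h5 : S ≤ D.B
    · rw [inf_eq_left.2 h5]; omega
    obtain ⟨t, ht, htB⟩ := SetLike.not_le_iff_exists.1 h5
    refine card_le_two_mul (a := t) fun x hx => (em (x ∈ D.B)).imp (fun h => ⟨hx, h⟩) fun h =>
      ⟨mul_mem hx ht, ?_⟩
    have := mul_mem (hdec x h) (hdec t htB)
    rwa [mul_mul_mul_comm, haa', mul_one] at this
  let A' : Subgroup A := S ⊓ D.B ⊔ A0
  obtain ⟨w, w1, w2, w3⟩ := sec (A := A') (fun x => Subtype.ext (hA x)) (a := ⟨a, mem_sup_right a.2⟩)
    (b0 := ⟨b, mem_sup_left hb⟩) (S := (S ⊓ D.B).subgroupOf A') (C := D.j.ker.subgroupOf A')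
    (fun x => by
      obtain ⟨c, hc, u, hu, e⟩ := mem_sup.1 x.2
      rcases h4 ⟨u, hu⟩ with h | h
      · left
        rw [show u = 1 from congrArg Subtype.val h, mul_one] at e
        rwa [mem_subgroupOf, ← e]
      · right
        rw [show u = a from congrArg Subtype.val h] at e
        rwa [mem_subgroupOf, coe_mul, ← e, mul_assoc, haa', mul_one])
    hb _ (D.res A') rfl haB (fun x hx => hx.2) (fun x hx => hq _ hx.1 _) hδ hβ
    fun x hx h => hC _ hx.2 h
  rw [Nat.card_congr (subgroupOfEquivOfLe le_sup_left).toEquiv] at w2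
  have h6 : Nat.card (D.j.ker.subgroupOf A') ≤ Nat.card D.j.ker :=
    Nat.card_le_card_of_injective (fun x => ⟨x.1.1, x.2⟩)
      fun x y e => Subtype.ext (Subtype.ext (congrArg (fun z : D.j.ker => z.1) e))
  have h7 : Nat.card (fx D.j S) ≤ Nat.card (fx (D.res A').j ((S ⊓ D.B).subgroupOf A')) :=
    AddSubgroup.card_le_of_le fun v hv t ht => hv _ ht.1
  have h8 := hS D.j.ker
  rw [show fx D.j D.j.ker = ⊤ from eq_top_iff.2 fun w _ t ht => by rw [MonoidHom.mem_ker.1 ht]; rfl,
    AddSubgroup.card_top] at h8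
  have h9 : 0 < Nat.card D.j.ker * Nat.card (fx D.j S) * w :=
    Nat.mul_pos (Nat.mul_pos Nat.card_pos Nat.card_pos) (by omega)
  have : Nat.card D.j.ker * Nat.card (fx D.j S) * w * w ≤
      Nat.card D.j.ker * Nat.card (fx D.j S) * w * 2 :=
    calc _ = Nat.card D.j.ker * (w ^ 2 * Nat.card (fx D.j S)) := by ring
      _ ≤ _ := Nat.mul_le_mul_left _ ((Nat.mul_le_mul_left _ h7).trans w3)
      _ ≤ _ := h8
      _ ≤ 2 * (Nat.card D.j.ker * w) * _ := Nat.mul_le_mul_right _ (h5.trans
        (Nat.mul_le_mul_left _ (w2.trans (Nat.mul_le_mul_right _ h6))))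
      _ = _ := by ring
  have := Nat.le_of_mul_le_mul_left this h9
  omega

end H1.PGV
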