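import Cfsg.Agent.H1.PLength2
import Cfsg.Agent.H1.CycSyl

/-!
Critical groups for the length of the upper `p`-series.
-/

set_option autoImplicit false

namespace H1

open Subgroup Cfsg

universe u

variable {G : Type*} [Group G] [Finite G] {p : ℕ} [hp : Fact p.Prime]

theorem comap_ups_inf_le (M N : Subgroup G) [M.Normal] [N.Normal] (hMN : M ⊓ N = ⊥) (n : ℕ) :
    (upperPSeries p (G ⧸ M) n).1.comap (QuotientGroup.mk' M) ⊓
      (upperPSeries p (G ⧸ N) n).1.comap (QuotientGroup.mk' N) ≤ (upperPSeries p G n).1 := by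
  induction n with
  | zero => simp [ups_zero, hMN]
  | succ n ih =>
    rw [ups_succ (G := G), normal_le_relCore_iff]
    refine IsPiNat.of_dvd ?_ (relIndex_dvd_of_le_left _ ih)
    rw [ups_succ, ups_succ, comap_relCore_of_surjective _ (QuotientGroup.mk'_surjective M),
      comap_relCore_of_surjective _ (QuotientGroup.mk'_surjective N)]
    rw [← normal_le_relCore_iff]
    exact relCore_inf_relCore_le _ _ _

theorem comap_ups_le_of_le_frattini (N : Subgroup G) [N.Normal] (hN : IsPGroup p N)
    (hF : N ≤ frattini G) (n : ℕ) :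
    (upperPSeries p (G ⧸ N) (n + 2)).1.comap (QuotientGroup.mk' N) ≤ (upperPSeries p G (n + 2)).1 := by
  have hs := QuotientGroup.mk'_surjective N
  have h1 := comap_pPrimeCore_of_le_frattini N hN hF
  induction n with
  | zero =>
    rw [ups_succ (G := G ⧸ N), comap_relCore_of_surjective _ hs, ups_succ (G := G) 1,
      ← relCore_relCore _ (upperPSeries p G 1).1]
    refine relCore_mono _ ?_
    rw [ups_one, h1, upsSet_odd p 0]
    refine sup_le (normal_le_relCore_iff.2 ((isPiNat_card_singleton_iff.2 hN).of_dvd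
      (relIndex_dvd_card _ _))) (ups_one.symm.le.trans (le_relCore_self _ _))
  | succ n ih =>
    rw [add_right_comm, ups_succ (n + 2), ups_succ (n + 2)]
    exact comap_relCore_le _ _ ih

theorem ups_critical {n : ℕ} (hG : IsPSolvable p G) (h : (upperPSeries p G (n + 2)).1 ≠ ⊤)
    (hq : ∀ (N : Subgroup G) [N.Normal], N ≠ ⊥ → (upperPSeries p (G ⧸ N) (n + 2)).1 = ⊤) :
    pPrimeCore p G = ⊥ ∧ pCore p G ≠ ⊥ ∧ IsMulCommutative (pCore p G) ∧
      centralizer (pCore p G : Set G) = pCore p G ∧
      (∀ L : Subgroup G, L.Normal → L ≠ ⊥ → pCore p G ≤ L) ∧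
      ∃ H : Subgroup G, IsComplement' (pCore p G) H ∧ IsCoatom H := by
  have h1 : pPrimeCore p G = ⊥ := by
    by_contra hne
    apply h
    rw [← comap_ups_succ_of_coprime (QuotientGroup.mk'_surjective (pPrimeCore p G))
      (by rw [QuotientGroup.ker_mk']; exact coprime_card_pPrimeCore p), hq _ hne, comap_top]
  have h2 : frattini G = ⊥ := by
    by_contra hne
    have := comap_ups_le_of_le_frattini (p := p) (frattini G)
      ((isPGroup_pCore p).to_le (frattini_le_fitting.trans (fitting_eq_pCore h1).le)) le_rfl n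
    rw [hq _ hne, comap_top] at this
    exact h (eq_top_iff.2 this)
  have h3 : pCore p G ≠ ⊥ := by
    rcases subsingleton_or_nontrivial G with hs | hs
    · exact (h (Subsingleton.elim _ _)).elim
    · exact (IsPSolvable.core_ne_bot hG).resolve_right (not_not.2 h1)
  have h4 : frattini (pCore p G) = ⊥ := by
    have := frattiniOf_normal_le (pCore p G)
    rwa [h2, le_bot_iff, map_eq_bot_iff_of_injective _ (subtype_injective _)] at this
  obtain ⟨h5, h6⟩ := (frattini_eq_bot_iff (isPGroup_pCore p)).1 h4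
  have h7 : ∀ M N : Subgroup G, M.Normal → N.Normal → M ≠ ⊥ → N ≠ ⊥ → M ⊓ N ≠ ⊥ := by
    intro M N _ _ hM hN hMN
    have := comap_ups_inf_le (p := p) M N hMN (n + 2)
    rw [hq M hM, hq N hN, comap_top, comap_top, inf_idem] at this
    exact h (eq_top_iff.2 this)
  obtain ⟨M, hM, hM0, hMle, hmin⟩ := exists_minimal_normal_le (pCore p G) h3
  have : IsMulCommutative M := isMulCommutative_of_le hMle
  obtain ⟨H, hH⟩ := exists_complement_of_inf_frattini_eq_bot M (by rw [h2, inf_bot_eq])
  have h8 : pCore p G ⊓ H = ⊥ := by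
    by_contra hne
    refine h7 M _ hM (normal_inf_of_sup_eq_top
      (eq_top_iff.2 (hH.sup_eq_top.symm.le.trans (sup_le_sup_right hMle _)))) hM0 hne ?_
    exact eq_bot_iff.2 ((inf_le_inf_left _ inf_le_right).trans hH.disjoint.le_bot)
  have h9 : pCore p G = M := by
    have := sup_inf_assoc_of_le_normalizer (B := H) hMle (Or.inr le_normalizer_of_normal)
    rwa [hH.sup_eq_top, top_inf_eq, inf_comm, h8, sup_bot_eq] at this
  refine ⟨h1, h3, h5, le_antisymm (IsPSolvable.centralizer_pCore_le hG h1)
      (le_centralizer_iff_isMulCommutative.2 h5), fun L hL hL0 => ?_, H, h9 ▸ hH, ?_, ?_⟩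
  · rw [h9]
    exact inf_eq_left.1 ((hmin _ inferInstance inf_le_left).resolve_left (h7 M L hM hL hM0 hL0))
  · rintro rfl
    exact hM0 (disjoint_top.1 hH.disjoint)
  · intro K hK
    have hn : (M ⊓ K).Normal := normal_inf_of_sup_eq_top
      (eq_top_iff.2 (hH.sup_eq_top.symm.le.trans (sup_le_sup_left hK.le _)))
    have h10 := sup_inf_assoc_of_le_normalizer (B := M) hK.le (Or.inl le_normalizer_of_normal)
    rw [sup_comm, hH.sup_eq_top, top_inf_eq] at h10
    rcases hmin _ hn inf_le_left with h0 | h0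
    · rw [h0, sup_bot_eq] at h10; exact absurd h10 hK.ne'
    · rw [h10, h0, sup_comm, hH.sup_eq_top]

theorem ups_two_eq_top_of_hasNormalPComplement (h : HasNormalPComplement p G) :
    (upperPSeries p G 2).1 = ⊤ := by
  obtain ⟨N, _, h1, h2⟩ := H3.hasNormalPComplement_iff_exists.1 h
  rw [ups_succ, relCore_eq_top_iff, upsSet_odd p 0, ups_one]
  exact (isPiNat_card_singleton_iff.2 h2).of_dvd (index_dvd_of_le (le_pPrimeCore h1))

theorem ups_eq_top_of_coatoms (m : ℕ) :
    ∀ (G : Type u) [Group G] [Finite G], Nat.card G = m → IsPSolvable p G →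
    (∀ M : Subgroup G, IsCoatom M → HasNormalPComplement p M ∨ M.index.Prime) →
    (upperPSeries p G (2 + 2)).1 = ⊤ := by
  induction m using Nat.strong_induction_on with
  | _ m ih =>
  intro G _ _ hm hG hmax
  by_contra h
  obtain ⟨h1, h2, h3, h4, -, H, hH, hM⟩ := ups_critical hG h fun N _ hN => by
    refine ih _ ?_ (G ⧸ N) rfl (IsPSolvable.quotient hG N) fun M hM => ?_
    · rw [← hm, card_eq_card_quotient_mul_card_subgroup N]
      have := (N.one_lt_card_iff_ne_bot).2 hN
      have : 0 < Nat.card (G ⧸ N) := Nat.card_pos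
      nlinarith
    · refine (hmax _ (isCoatom_comap_of_surjective (QuotientGroup.mk'_surjective N) hM)).imp
        (fun h => ?_) fun h => ?_
      · have := H3.hasNormalPComplement_map (QuotientGroup.mk' N) h
        rwa [map_comap_eq_self_of_surjective (QuotientGroup.mk'_surjective N)] at this
      · rwa [index_comap_of_surjective _ (QuotientGroup.mk'_surjective N)] at h
  have hk : (QuotientGroup.mk' (pCore p G)).ker = (upperPSeries p G (2 * 1)).1 := by
    rw [QuotientGroup.ker_mk', mul_one, ups_two, pPrimePCore_eq_pCore h1]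
  apply h
  rw [← comap_ups_of_ker_eq (k := 1) (QuotientGroup.mk'_surjective _) hk 2]
  suffices h5 : (upperPSeries p (G ⧸ pCore p G) 2).1 = ⊤ by rw [h5, comap_top]
  rcases hmax H hM with h5 | h5
  · refine ups_two_eq_top_of_hasNormalPComplement ?_
    have h6 := H3.hasNormalPComplement_map (QuotientGroup.mk' (pCore p G)) h5
    rwa [H3.map_mk'_eq_top_of_sup_eq_top hH.sup_eq_top, H3.hasNormalPComplement_top] at h6
  · rw [hH.index_eq_card] at h5
    obtain ⟨k, hk⟩ := (isPGroup_pCore (G := G) p).exists_card_eq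
    have h6 : Nat.card (pCore p G) = p := by
      rw [hk] at h5 ⊢
      exact ((Nat.prime_dvd_prime_iff_eq hp.out h5).1 (dvd_pow_self p (by
        rintro rfl; exact Nat.not_prime_one h5))).symm
    have h7 := (quotient_centralizer_prime hp.out h6).2
    rw [h4] at h7
    refine eq_top_iff.2 (le_trans ?_ (ups_le_succ 1))
    rw [ups_one, top_le_iff, pPrimeCore_eq_top_iff]
    refine Nat.Coprime.coprime_dvd_left h7 ?_
    have := hp.out.pos
    exact (Nat.coprime_self_sub_left (by omega)).2 (Nat.coprime_one_left p)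

theorem ups_relIndex_even (k : ℕ) :
    ¬ p ∣ (upperPSeries p G (2 * k)).1.relIndex (upperPSeries p G (2 * k + 1)).1 := by
  have := isPiNat_relIndex_relCore (upsSet p (2 * k)) (upperPSeries p G (2 * k)).1
  rw [← ups_succ, upsSet_even] at this
  exact fun h => this p hp.out h rfl

theorem ups_relIndex_odd (k : ℕ) :
    ∃ j, (upperPSeries p G (2 * k + 1)).1.relIndex (upperPSeries p G (2 * k + 2)).1 = p ^ j := by
  have := isPiNat_relIndex_relCore (upsSet p (2 * k + 1)) (upperPSeries p G (2 * k + 1)).1
  rw [← ups_succ, upsSet_odd] at this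
  exact (isPiNat_singleton_iff hp.out index_ne_zero_of_finite).1 this

end H1
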