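import Cfsg.Agent.H3.S8h
import Cfsg.Prelude.Def_Local

open Subgroup Equiv H3S

namespace H1.Tf

variable {G : Type*} [Group G] [Finite G] {t : G}

theorem tf {S : Subgroup G} (tt : t * t = 1) (hS : S ≤ centralizer {t}) (ht : t ∉ S)
    (h2 : ∀ g, g * t = t * g → g ∈ S ∨ t * g ∈ S)
    (hf : ∀ g, t * (g * t * g⁻¹) ∈ S → g * t * g⁻¹ = t) : ∃ N : Subgroup G, N.index = 2 ∧ t ∉ N := by
  classical
  set C : Subgroup G := centralizer {t} with hC
  have hm : ∀ g, g ∈ C ↔ g * t = t * g := fun g => mem_centralizer_singleton_iff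
  let l : C →* ℤˣ :=
    { toFun := fun g => if g.1 ∈ S then 1 else -1
      map_one' := by simp [S.one_mem]
      map_mul' := fun a b => by
        by_cases ha : a.1 ∈ S <;> by_cases hb : b.1 ∈ S
        · simp [ha, hb, S.mul_mem ha hb]
        · simp [ha, hb, S.mul_mem_cancel_left ha]
        · simp [ha, hb, S.mul_mem_cancel_right hb]
        · have h3 := S.mul_mem ((h2 _ ((hm _).1 a.2)).resolve_left ha)
            ((h2 _ ((hm _).1 b.2)).resolve_left hb)
          have : t * a.1 * (t * b.1) = a.1 * b.1 := by
            rw [← (hm _).1 a.2]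
            calc a.1 * t * (t * b.1) = a.1 * (t * t) * b.1 := by group
              _ = _ := by rw [tt, mul_one]
          rw [this] at h3
          simp [ha, hb, h3] }
  have hl : ∀ g : C, l g = if g.1 ∈ S then 1 else -1 := fun _ => rfl
  have tp : ∀ m : ℕ, t ^ m = 1 ∨ t ^ m = t := by
    intro m
    induction m with
    | zero => simp
    | succ m ih => rcases ih with h | h <;> simp [pow_succ, h, tt]
  have tC : t ∈ C := (hm t).2 rfl
  have fx : t • ((1 : G) : G ⧸ C) = ((1 : G) : G ⧸ C) := by
    change ((t * 1 : G) : G ⧸ C) = _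
    rw [QuotientGroup.eq]; simpa using tC
  have key : MonoidHom.transfer l t = -1 := by
    have := Fintype.ofFinite (Quotient (MulAction.orbitRel (zpowers t) (G ⧸ C)))
    rw [MonoidHom.transfer_eq_prod_quotient_orbitRel_zpowers_quot,
      Finset.prod_eq_single (Quotient.mk _ ((1 : G) : G ⧸ C))]
    · have h1 : (Quotient.mk (MulAction.orbitRel (zpowers t) (G ⧸ C)) ((1 : G) : G ⧸ C)).out =
          ((1 : G) : G ⧸ C) := by
        obtain ⟨⟨_, k, rfl⟩, hk⟩ := Quotient.mk_out (s := MulAction.orbitRel (zpowers t) (G ⧸ C))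
          ((1 : G) : G ⧸ C)
        rw [← hk]
        exact (MulAction.stabilizer G ((1 : G) : G ⧸ C)).zpow_mem fx k
      rw [hl, if_neg]
      simp only [h1]
      rw [Function.minimalPeriod_eq_one_iff_isFixedPt.2 fx, pow_one]
      have h3 : (((1 : G) : G ⧸ C)).out ∈ C := by
        have := QuotientGroup.eq.1 (QuotientGroup.out_eq' ((1 : G) : G ⧸ C))
        simpa using this
      rw [mul_assoc, ← (hm _).1 h3, inv_mul_cancel_left]
      exact ht
    · intro q _ hq
      have h0 := QuotientGroup.out_conj_pow_minimalPeriod_mem C t q.out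
      rw [hl, if_pos]
      simp only
      rcases tp (Function.minimalPeriod (fun x => t • x) q.out) with h | h
      · rw [h]; simpa using S.one_mem
      · rw [h] at h0 ⊢
        by_contra hn
        have h4 := hf q.out.out⁻¹ (by simpa using (h2 _ ((hm _).1 h0)).resolve_left hn)
        apply hq
        have h5 : q.out.out ∈ C := by
          rw [hm]
          calc q.out.out * t = q.out.out * (q.out.out⁻¹ * t * q.out.out⁻¹⁻¹) := by rw [h4]
            _ = _ := by group
        rw [← Quotient.out_eq q]
        congr 1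
        rw [← QuotientGroup.out_eq' q.out, QuotientGroup.eq]
        simpa using h5
    · simp
  refine ⟨(MonoidHom.transfer l).ker, ?_, by simp [MonoidHom.mem_ker, key]⟩
  rw [index_ker]
  have : (MonoidHom.transfer l).range = ⊤ := by
    rw [eq_top_iff]
    intro x _
    rcases Int.units_eq_one_or x with rfl | rfl
    · exact one_mem _
    · exact ⟨t, key⟩
  rw [this, card_top]
  simp

end H1.Tf
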